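import Cfsg.Agent.McL.XData
import Cfsg.Prelude.Def_SporadicB

/-! The alternating group of degree eight and its double cover. -/

set_option autoImplicit false
set_option maxRecDepth 100000
set_option linter.unusedSectionVars false

namespace Cfsg.Agent.McL

open Cfsg.Agent.Mat Subgroup Equiv

/-- The coded alternating group. -/
noncomputable def A8 : Subgroup (CP 8) := (alternatingGroup (Fin 8)).map CP.equiv.toMonoidHom

theorem mem_A8 {x : CP 8} : x ∈ A8 ↔ Perm.sign (CP.equiv.symm x) = 1 := mem_map_equiv.trans Perm.mem_alternatingGroup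

theorem card_map_equiv {A B : Type*} [Group A] [Group B] (e : A ≃* B) (K : Subgroup A) :
    Nat.card K = Nat.card (K.map e.toMonoidHom) := (card_map_of_injective e.injective).symm

theorem card_A8' : Nat.card (alternatingGroup (Fin 8)) = Nat.card A8 := card_map_equiv _ _

theorem card_A8 : Nat.card A8 = 20160 := by
  rw [← card_A8']
  have := two_mul_nat_card_alternatingGroup (α := Fin 8)
  rw [Nat.card_perm, Nat.card_fin] at this
  have e : Nat.factorial 8 = 40320 := by decide
  omega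

theorem cl_ms8 : cl ms8 = A8 := eq_of_le_of_card_ge (cl_le fun x hx => by
  have h : ∀ x ∈ ms8, x = x * x * (x * x) := by decide +kernel
  rw [mem_A8, h x hx, map_mul, map_mul (CP.equiv.symm (x * x) |> fun _ => Perm.sign), Int.units_mul_self])
  (card_A8.le.trans low_ms8)

/-- The number of moved points. -/
def sp (x : CP 8) : ℕ := (Finset.univ.filter fun i : Fin 8 => lk x.1 i ≠ i).card

theorem sp_eq (x : CP 8) : (CP.equiv.symm x).support.card = sp x :=
  congrArg Finset.card (Finset.ext fun i => by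
    rw [Perm.mem_support, Finset.mem_filter, ← CP.smul_val, Ne, Fin.ext_iff]
    exact (and_iff_right (Finset.mem_univ i)).symm)

theorem cyc_two {x : CP 8} (h : x * x = 1) : ∃ k, (CP.equiv.symm x).cycleType = Multiset.replicate k 2 ∧ sp x = 2 * k := by
  have h1 := Perm.cycleType_of_pow_prime_eq_one (σ := CP.equiv.symm x) (p := 2) (by rw [pow_two, ← map_mul, h, map_one])
  refine ⟨_, h1, ?_⟩
  rw [← sp_eq, ← Perm.sum_cycleType, h1]
  simp [mul_comm]

theorem sp_cases {x : CP 8} (h : x * x = 1) (h1 : x ≠ 1) (h2 : x ∈ A8) : sp x = 4 ∨ sp x = 8 := by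
  obtain ⟨k, e1, e2⟩ := cyc_two h
  have e3 : sp x ≤ 8 := by rw [← sp_eq]; simpa using Finset.card_le_univ (CP.equiv.symm x).support
  have e4 : sp x ≠ 0 := fun e => by
    rw [← sp_eq, Finset.card_eq_zero, Perm.support_eq_empty_iff, MulEquiv.map_eq_one_iff] at e
    exact h1 e
  rw [mem_A8, Perm.sign_of_cycleType, e1] at h2
  have e5 : k ≤ 4 := by omega
  interval_cases k
  · omega
  · exact absurd h2 (by decide)
  · omega
  · exact absurd h2 (by decide)
  · omega

/-- A transposition. -/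
def tr45 : CP 8 := CP.of (swap 4 5)

theorem tr45_sign : Perm.sign (CP.equiv.symm tr45) = -1 := by
  rw [show tr45 = CP.equiv (swap 4 5) from rfl, MulEquiv.symm_apply_apply, Perm.sign_swap (by decide)]

theorem conj_A8 {x y : CP 8} (hx : x * x = 1) (hy : y * y = 1) (h : sp x = sp y) (hc : tr45 * x = x * tr45) :
    ∃ g ∈ A8, g * x * g⁻¹ = y := by
  obtain ⟨k, e1, e2⟩ := cyc_two hx
  obtain ⟨l, e3, e4⟩ := cyc_two hy
  obtain ⟨g, hg⟩ := isConj_iff.mp (Perm.isConj_iff_cycleType_eq.mpr (e1.trans (by rw [e3, show k = l by omega])))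
  obtain ⟨g, rfl⟩ := CP.equiv.symm.surjective g
  rw [← map_inv, ← map_mul, ← map_mul, CP.equiv.symm.injective.eq_iff] at hg
  rcases Int.units_eq_one_or (Perm.sign (CP.equiv.symm g)) with e | e
  · exact ⟨g, mem_A8.mpr e, hg⟩
  · refine ⟨g * tr45, mem_A8.mpr (by rw [map_mul, map_mul, e, tr45_sign]; rfl), ?_⟩
    rw [← hg, mul_assoc g, hc]
    group

theorem card_cent {x : CP 8} (hx : x * x = 1) (h : sp x = 8) (hc : tr45 * x = x * tr45) :
    Nat.card ↥(A8 ⊓ centralizer {x}) ≤ 192 := by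
  obtain ⟨k, e1, e2⟩ := cyc_two hx
  obtain rfl : k = 4 := by omega
  have h1 := Perm.nat_card_centralizer (CP.equiv.symm x)
  rw [e1] at h1
  have h2 : Nat.card (centralizer {x}) = 384 := by
    rw [← show Nat.card (centralizer {CP.equiv.symm x}) = 384 from h1.trans (by decide)]
    refine Nat.card_congr (CP.equiv.symm.toEquiv.subtypeEquiv fun g => ?_)
    simp only [mem_centralizer_singleton_iff]
    show _ ↔ CP.equiv.symm g * _ = _ * CP.equiv.symm g
    rw [← map_mul, ← map_mul, CP.equiv.symm.injective.eq_iff]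
  have h3 := (A8.subgroupOf (centralizer {x})).card_mul_index
  have h4 : (A8.subgroupOf (centralizer {x})).index ≠ 1 := fun e => by
    have := mem_A8.mp (subgroupOf_eq_top.mp (index_eq_one.mp e) (mem_centralizer_singleton_iff.mpr hc))
    rw [tr45_sign] at this
    exact absurd this (by decide)
  have h5 := (A8.subgroupOf (centralizer {x})).index_ne_zero_of_finite
  rw [← inf_subgroupOf_right, Nat.card_congr (subgroupOfEquivOfLe inf_le_right).toEquiv, inf_subgroupOf_right, h2] at h3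
  have h6 : 2 ≤ (A8.subgroupOf (centralizer {x})).index := by omega
  nlinarith

variable {X : Type*} [Group X] [Finite X]

/-- The projection of a nonsplit double cover. -/
structure Cov (z : X) (π : X →* CP 8) : Prop where
  z1 : z ≠ 1
  cz : ∀ g, g * z = z * g
  ker : ∀ g, π g = 1 ↔ g = 1 ∨ g = z
  range : π.range = A8
  card : Nat.card X = 40320
  ns : ∀ L : Subgroup X, Nat.card L ≤ 20160 → L.map π ≠ A8

theorem exists_cov (h : IsNonsplitDoubleCover X (alternatingGroup (Fin 8))) {z : X} (z1 : z ≠ 1)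
    (cz : ∀ g, g * z = z * g) : ∃ π, Cov z π := by
  obtain ⟨h1, ⟨e⟩, h2⟩ := h
  let π : X →* CP 8 := (CP.equiv.toMonoidHom.comp (alternatingGroup (Fin 8)).subtype).comp
    (e.toMonoidHom.comp (QuotientGroup.mk' _))
  have k0 : ∀ g, π g = 1 ↔ g ∈ center X := fun g => by
    show CP.equiv (e g).1 = 1 ↔ _
    rw [MulEquiv.map_eq_one_iff, OneMemClass.coe_eq_one, MulEquiv.map_eq_one_iff, QuotientGroup.eq_one_iff]
  have k1 : ∀ g, π g = 1 ↔ g = 1 ∨ g = z := fun g => by
    rw [k0]
    refine ⟨fun hg => ?_, by rintro (rfl | rfl); exacts [one_mem _, mem_center_iff.mpr cz]⟩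
    obtain ⟨y, -, hy⟩ := (Nat.card_eq_two_iff' (1 : center X)).mp h1
    rw [or_iff_not_imp_left]
    exact fun g1 => congrArg Subtype.val ((hy ⟨g, hg⟩ fun e => g1 (congrArg Subtype.val e)).trans
      (hy ⟨z, mem_center_iff.mpr cz⟩ fun e => z1 (congrArg Subtype.val e)).symm)
  have k2 : π.range = A8 := by
    ext x
    constructor
    · rintro ⟨g, rfl⟩
      exact ⟨_, (e g).2, rfl⟩
    · rintro ⟨σ, hσ, rfl⟩
      obtain ⟨g, hg⟩ := e.surjective ⟨σ, hσ⟩
      obtain ⟨g, rfl⟩ := QuotientGroup.mk_surjective g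
      refine ⟨g, ?_⟩
      show CP.equiv (e g).1 = CP.equiv σ
      rw [hg]
  have k3 : Nat.card X = 40320 := by
    rw [card_eq_card_quotient_mul_card_subgroup (center X), h1, Nat.card_congr e.toEquiv, card_A8', card_A8]
  refine ⟨π, z1, cz, k1, k2, k3, fun L hL e1 => h2 L ?_⟩
  have k4 := card_eq_card_quotient_mul_card_subgroup (π.comp L.subtype).ker
  rw [Nat.card_congr (QuotientGroup.quotientKerEquivRange _).toEquiv, MonoidHom.range_comp, range_subtype, e1,
    card_A8] at k4
  have k5 : 0 < Nat.card (π.comp L.subtype).ker := Nat.card_pos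
  refine isComplement'_of_card_mul_and_disjoint (by rw [h1, k3]; omega) (disjoint_def.mpr fun {g} g1 g2 => ?_)
  have k6 : (π.comp L.subtype).ker = ⊥ := card_eq_one.mp (by omega)
  exact congrArg Subtype.val (mem_bot.mp (k6.le (show (⟨g, g2⟩ : L) ∈ _ from (k0 g).mpr g1)))

namespace Cov

variable {z : X} {π : X →* CP 8} (h : Cov z π)
include h

theorem zz : z * z = 1 := by
  rcases (h.ker (z * z)).mp (by rw [map_mul, (h.ker z).mpr (Or.inr rfl), one_mul]) with e | e
  exacts [e, absurd (mul_eq_left.mp e) h.z1]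

theorem eq_or {x y : X} (e : π x = π y) : x = y ∨ x = z * y := by
  simpa only [mul_inv_eq_iff_eq_mul, one_mul] using (h.ker (x * y⁻¹)).mp (by rw [map_mul, map_inv, e, mul_inv_cancel])

theorem mem (x : X) : π x ∈ A8 := h.range ▸ ⟨x, rfl⟩

theorem conj {x y : X} (hx : π x * π x = 1) (hy : π y * π y = 1) (e : sp (π x) = sp (π y))
    (hc : tr45 * π x = π x * tr45) : ∃ g, g * x * g⁻¹ = y ∨ g * x * g⁻¹ = z * y := by
  obtain ⟨g, hg, e1⟩ := conj_A8 hx hy e hc
  obtain ⟨g, rfl⟩ := h.range.ge hg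
  exact ⟨g, h.eq_or (by rw [map_mul, map_mul, map_inv, e1])⟩

theorem sq_eq {x y : X} (hx : π x * π x = 1) (hy : π y * π y = 1) (e : sp (π x) = sp (π y))
    (hc : tr45 * π x = π x * tr45) : y * y = x * x := by
  obtain ⟨g, e1⟩ := h.conj hx hy e hc
  have e2 : g * x * g⁻¹ * (g * x * g⁻¹) = y * y := by
    rcases e1 with e1 | e1 <;> rw [e1]
    rw [mul_assoc, ← mul_assoc y, h.cz, ← mul_assoc, ← mul_assoc, h.zz, one_mul]
  rw [← e2, conj_mul]
  rcases (h.ker (x * x)).mp (by rw [map_mul, hx]) with e3 | e3 <;> rw [e3]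
  · simp
  · rw [h.cz, mul_inv_cancel_right]

theorem lift3 {σ : CP 8} (h1 : σ ∈ A8) (h2 : σ * σ * σ = 1) : ∃ x, π x = σ ∧ x * x * x = 1 := by
  obtain ⟨x, rfl⟩ := h.range.ge h1
  rcases (h.ker (x * x * x)).mp (by rw [map_mul, map_mul, h2]) with e | e
  · exact ⟨x, rfl, e⟩
  · refine ⟨z * x, by rw [map_mul, (h.ker z).mpr (Or.inr rfl), one_mul], ?_⟩
    have c : Commute z x := (h.cz x).symm
    rw [← pow_three', c.mul_pow, pow_three', pow_three', e, h.zz, one_mul, h.zz]

theorem top_of {L : Subgroup X} (hz : z ∈ L) {K : Subgroup (CP 8)} (e : K ≤ L.map π) {x : X} (hx : π x ∈ K) : x ∈ L := by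
  obtain ⟨y, hy, e1⟩ := e hx
  rcases h.eq_or e1.symm with rfl | rfl
  exacts [hy, mul_mem hz hy]

end Cov

end Cfsg.Agent.McL
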