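import Cfsg.Agent.Mat.Model

/-! Permutations of at most 512 points coded by natural numbers. -/

set_option autoImplicit false

namespace Cfsg.Agent.McL

open Cfsg.Agent.Mat

/-- Entry of a packed table of nine-bit entries. -/
def lq (c i : ℕ) : ℕ := Nat.land (Nat.shiftRight c (Nat.mul 9 i)) 511

/-- Packing of a table of nine-bit entries. -/
def paq (f : ℕ → ℕ) (n : ℕ) : ℕ :=
  @Nat.rec (fun _ => ℕ) 0 (fun i acc => Nat.add acc (Nat.shiftLeft (f i) (Nat.mul 9 i))) n

theorem lq_eq (c i : ℕ) : lq c i = c / 512 ^ i % 512 := by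
  show (c >>> (9 * i)) &&& 511 = _
  rw [Nat.shiftRight_eq_div_pow, pow_mul]
  exact Nat.and_two_pow_sub_one_eq_mod _ 9

theorem paq_succ (f : ℕ → ℕ) (n : ℕ) : paq f (n + 1) = paq f n + f n * 512 ^ n := by
  show paq f n + (f n) <<< (9 * n) = _
  rw [Nat.shiftLeft_eq, pow_mul]
  rfl

theorem paq_lt {f : ℕ → ℕ} {n : ℕ} (h : ∀ i < n, f i < 512) : paq f n < 512 ^ n := by
  induction n with
  | zero => exact Nat.one_pos
  | succ n ih =>
    have h1 := ih fun i hi => h i (by omega)
    have h2 := h n (by omega)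
    rw [paq_succ, pow_succ]
    nlinarith

theorem lq_paq {f : ℕ → ℕ} {n : ℕ} (h : ∀ i < n, f i < 512) {i : ℕ} (hi : i < n) : lq (paq f n) i = f i := by
  induction n with
  | zero => omega
  | succ n ih =>
    have h1 := paq_lt (f := f) (n := n) fun i hi => h i (by omega)
    rw [lq_eq, paq_succ]
    rcases Nat.lt_succ_iff_lt_or_eq.mp hi with h2 | rfl
    · obtain ⟨k, rfl⟩ := Nat.exists_eq_add_of_lt h2
      rw [← ih (fun i hi => h i (by omega)) h2, lq_eq, add_assoc, pow_add, mul_left_comm, 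
        Nat.add_mul_div_left _ _ (by positivity), pow_succ, ← mul_assoc, Nat.add_mul_mod_self_right]
    · rw [Nat.add_mul_div_right _ _ (by positivity), Nat.div_eq_of_lt h1, zero_add, Nat.mod_eq_of_lt (h i hi)]

theorem paq_congr {f g : ℕ → ℕ} {n : ℕ} (h : ∀ i < n, f i = g i) : paq f n = paq g n := by
  induction n with
  | zero => rfl
  | succ n ih => rw [paq_succ, paq_succ, ih fun i hi => h i (by omega), h n (by omega)]

/-- The coq of a permutation. -/
def coq {n : ℕ} (σ : Equiv.Perm (Fin n)) : ℕ := paq (fun i => if h : i < n then σ ⟨i, h⟩ else 0) n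

/-- Product of codes. -/
def qmul (n a b : ℕ) : ℕ := paq (fun i => lq a (lq b i)) n

/-- Inverse of a coq. -/
def qinv (n a : ℕ) : ℕ :=
  @Nat.rec (fun _ => ℕ) 0 (fun i acc => Nat.add acc (Nat.shiftLeft i (Nat.mul 9 (lq a i)))) n

variable {n : ℕ} [hn : Fact (n ≤ 512)]

theorem lq_coq (σ : Equiv.Perm (Fin n)) (i : Fin n) : lq (coq σ) i = σ i := by
  rw [coq, lq_paq (fun j hj => by rw [dif_pos hj]; exact (σ _).2.trans_le hn.out) i.2, dif_pos i.2]

theorem coq_injective : Function.Injective (coq : Equiv.Perm (Fin n) → ℕ) := fun σ τ h =>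
  Equiv.ext fun i => Fin.ext (by rw [← lq_coq, ← lq_coq, h])

theorem coq_mul (σ τ : Equiv.Perm (Fin n)) : coq (σ * τ) = qmul n (coq σ) (coq τ) :=
  paq_congr fun i hi => by rw [dif_pos hi, lq_coq τ ⟨i, hi⟩, lq_coq]; rfl

omit hn in
theorem coq_one : coq (1 : Equiv.Perm (Fin n)) = paq id n := paq_congr fun i hi => by rw [dif_pos hi]; rfl

omit hn in
theorem paq_eq_sum (f : ℕ → ℕ) (n : ℕ) : paq f n = ∑ i ∈ Finset.range n, f i * 512 ^ i := by
  induction n with
  | zero => rfl
  | succ n ih => rw [paq_succ, ih, Finset.sum_range_succ]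

omit hn in
theorem qinv_eq_sum (n a : ℕ) : qinv n a = ∑ i ∈ Finset.range n, i * 512 ^ lq a i := by
  induction n with
  | zero => rfl
  | succ n ih =>
    rw [Finset.sum_range_succ, ← ih]
    show qinv n a + n <<< (9 * lq a n) = _
    rw [Nat.shiftLeft_eq, pow_mul]
    rfl

theorem coq_inv (σ : Equiv.Perm (Fin n)) : coq σ⁻¹ = qinv n (coq σ) := by
  rw [coq, paq_eq_sum, qinv_eq_sum, Finset.sum_range, Finset.sum_range, ← Equiv.sum_comp σ]
  exact Finset.sum_congr rfl fun i _ => by simp [lq_coq]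

/-- Coded permutations. -/
def CQ (n : ℕ) : Type := {c : ℕ // ∃ σ : Equiv.Perm (Fin n), coq σ = c}

namespace CQ

instance : DecidableEq (CQ n) := fun a b => decidable_of_iff (Nat.beq a.1 b.1 = true)
  (Nat.beq_eq.to_iff.trans Subtype.ext_iff.symm)

instance : One (CQ n) := ⟨⟨paq id n, 1, coq_one⟩⟩

instance : Mul (CQ n) := ⟨fun a b => ⟨qmul n a.1 b.1, by
  obtain ⟨σ, h⟩ := a.2
  obtain ⟨τ, h'⟩ := b.2
  exact ⟨σ * τ, by rw [coq_mul, h, h']⟩⟩⟩

instance : Inv (CQ n) := ⟨fun a => ⟨qinv n a.1, by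
  obtain ⟨σ, h⟩ := a.2
  exact ⟨σ⁻¹, by rw [coq_inv, h]⟩⟩⟩

/-- The coded form of a permutation. -/
def of (σ : Equiv.Perm (Fin n)) : CQ n := ⟨coq σ, σ, rfl⟩

omit hn in
theorem of_surjective : Function.Surjective (of : Equiv.Perm (Fin n) → CQ n) :=
  fun a => a.2.imp fun _ h => Subtype.ext h

theorem of_mul (σ τ : Equiv.Perm (Fin n)) : of (σ * τ) = of σ * of τ := Subtype.ext (coq_mul σ τ)

theorem of_inv (σ : Equiv.Perm (Fin n)) : of σ⁻¹ = (of σ)⁻¹ := Subtype.ext (coq_inv σ)

omit hn in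
theorem of_one : of (1 : Equiv.Perm (Fin n)) = 1 := Subtype.ext coq_one

instance : Group (CQ n) := Group.ofLeftAxioms
  (fun a b c => by
    obtain ⟨a, rfl⟩ := of_surjective a
    obtain ⟨b, rfl⟩ := of_surjective b
    obtain ⟨c, rfl⟩ := of_surjective c
    rw [← of_mul, ← of_mul, ← of_mul, ← of_mul, mul_assoc])
  (fun a => by
    obtain ⟨a, rfl⟩ := of_surjective a
    rw [← of_one, ← of_mul, one_mul])
  (fun a => by
    obtain ⟨a, rfl⟩ := of_surjective a
    rw [← of_inv, ← of_mul, inv_mul_cancel, of_one])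

/-- The isomorphism with the symmetric group. -/
noncomputable def equiv : Equiv.Perm (Fin n) ≃* CQ n :=
  MulEquiv.ofBijective (MonoidHom.mk' of of_mul)
    ⟨fun _ _ h => coq_injective (congrArg Subtype.val h), of_surjective⟩

instance : Finite (CQ n) := Finite.of_surjective _ of_surjective

noncomputable instance : MulAction (CQ n) (Fin n) := MulAction.compHom _ equiv.symm.toMonoidHom

theorem smul_val (a : CQ n) (i : Fin n) : (a • i).1 = lq a.1 i := by
  obtain ⟨a, rfl⟩ := equiv.surjective a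
  show (equiv.symm (equiv a) i).1 = _
  rw [MulEquiv.symm_apply_apply]
  exact (lq_coq a i).symm

instance : FaithfulSMul (CQ n) (Fin n) := ⟨fun h => equiv.symm.injective (Equiv.ext h)⟩

end CQ

/-- Validity of a coq. -/
def valq (n c : ℕ) : Bool :=
  Nat.beq c (paq (lq c) n) && allN (fun i => Nat.blt (lq c i) n && Nat.beq (lq (qinv n c) (lq c i)) i) n

omit hn in
theorem valq_spec {c : ℕ} (h : valq n c = true) : ∃ σ : Equiv.Perm (Fin n), coq σ = c := by
  rw [valq, Bool.and_eq_true, Nat.beq_eq] at h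
  have h1 := fun i : Fin n => allN_spec h.2 i i.2
  simp only [Bool.and_eq_true, Nat.blt_eq, Nat.beq_eq] at h1
  refine ⟨Equiv.ofBijective (fun i => ⟨lq c i, (h1 i).1⟩) (Finite.injective_iff_bijective.mp fun i j e =>
    Fin.ext (by rw [← (h1 i).2, ← (h1 j).2, show lq c i = lq c j from congrArg Fin.val e])), ?_⟩
  exact Eq.trans (paq_congr fun i hi => by rw [dif_pos hi]; rfl) h.1.symm

/-- A list of coded permutations from a list of valq codes. -/
def cqL (n : ℕ) (l : List ℕ) (h : l.all (valq n) = true) : List (CQ n) :=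
  l.pmap (fun c hc => ⟨c, valq_spec hc⟩) (List.all_eq_true.mp h)

end Cfsg.Agent.McL
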