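import Cfsg.Agent.FT.Final
import Cfsg.Agent.Block.ZStar
import Cfsg.Agent.CIT.Basic
import Cfsg.Agent.M11.Count
import Mathlib.GroupTheory.FixedPointFree

/-! General lemmas for the last steps of the identification. -/

set_option autoImplicit false
set_option linter.unusedSectionVars false

namespace Cfsg.Agent.McL

open Subgroup Cfsg.Agent.Local

variable {G : Type*} [Group G] [Finite G]

theorem sup_of_zstar {t : G} (ht : t * t = 1) (h : InZStar 2 t) : centralizer {t} ⊔ pPrimeCore 2 G = ⊤ := by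
  refine eq_top_iff.mpr fun g _ => ?_
  have h1 := h g
  rw [inv_eq_of_mul_eq_one_right ht] at h1
  have h2 : g * t * g⁻¹ * (g * t * g⁻¹) = 1 := by rw [conj_mul, ht]; simp
  obtain ⟨m, -, h3⟩ := CIT.exists_swap_of_odd h2 ht (Nat.coprime_two_right.mp
    ((coprime_card_pPrimeCore 2).coprime_dvd_left (orderOf_dvd_card_of_mem h1)))
  have h4 : (g * t * g⁻¹ * t) ^ m * (g * t * g⁻¹) ∈ centralizer {t} ⊔ pPrimeCore 2 G := by
    rw [show ∀ x, x * (g * t * g⁻¹) = x * (g * t * g⁻¹ * t) * t from fun x => by rw [mul_assoc x, mul_assoc _ t t, ht, mul_one]]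
    exact mul_mem (mem_sup_right (mul_mem (pow_mem h1 m) h1)) (mem_sup_left (mem_centralizer_singleton_iff.mpr rfl))
  generalize (g * t * g⁻¹ * t) ^ m * (g * t * g⁻¹) = x at h3 h4
  refine (mul_mem_cancel_left h4).mp (mem_sup_left (mem_centralizer_singleton_iff.mpr ?_))
  calc _ = x * (g * t * g⁻¹) * x⁻¹ * (x * g) := by group
    _ = _ := by rw [h3]

theorem inj_of_four {M : Type*} [Group M] [Finite M] (f : M →* G) {t e : M} (ht : t * t = 1) (he : e * e = 1)
    (h : ∀ v ∈ [t, e, t * e], ∀ n, f n = 1 → v * n * v⁻¹ = n → n = 1) : Function.Injective f := by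
  have k : ∀ v ∈ [t, e, t * e], v * v = 1 → ∀ n : f.ker, MulAut.conjNormal v n = n⁻¹ := fun v hv v2 =>
    congrFun (MonoidHom.FixedPointFree.coe_eq_inv_of_involutive (φ := MulAut.conjNormal v)
      (fun n hn => Subtype.ext (h v hv n n.2 (congrArg Subtype.val hn))) fun n => by
        rw [← MulAut.mul_apply, ← map_mul, v2, map_one, MulAut.one_apply])
  refine (injective_iff_map_eq_one f).mpr fun n hn => h (t * e) (by simp) n hn ?_
  have := congrArg Subtype.val (show MulAut.conjNormal (t * e) (⟨n, hn⟩ : f.ker) = ⟨n, hn⟩ by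
    rw [map_mul, MulAut.mul_apply, k e (by simp) he, map_inv, k t (by simp) ht, inv_inv])
  exact this

theorem exists_odd {K : Subgroup G} {r : G} (hr : r * r = 1) (r1 : r ≠ 1) (hC : centralizer {r} ≤ K)
    (h1 : ∀ v ∈ K, v * v = 1 → v ≠ 1 → ∃ k ∈ K, k * r * k⁻¹ = v) (hK : K ≠ ⊤) :
    ∃ D ≤ K, ¬ 2 ∣ Nat.card D ∧ {v | ∃ k ∈ K, k * r * k⁻¹ = v}.ncard ∣ Nat.card D := by
  have rK : r ∈ K := hC (mem_centralizer_singleton_iff.mpr rfl)
  have cj : ∀ g v : G, v * v = 1 → g * v * g⁻¹ * (g * v * g⁻¹) = 1 := fun g v h => by rw [conj_mul, h]; simp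
  have fix : ∀ g, ∀ v ∈ K, v * v = 1 → v ≠ 1 → g * v * g⁻¹ ∈ K → g ∈ K := fun g v hv v2 v1 hg => by
    obtain ⟨k, hk, rfl⟩ := h1 v hv v2 v1
    obtain ⟨l, hl, e⟩ := h1 _ hg (cj _ _ v2) fun e => v1 (conj_eq_one_iff.mp e)
    refine (mul_mem_cancel_left (inv_mem hl)).mp ((mul_mem_cancel_right hk).mp
      (hC (mem_centralizer_singleton_iff.mpr ?_)))
    calc _ = l⁻¹ * (g * (k * r * k⁻¹) * g⁻¹) * g * k := by group
      _ = _ := by rw [← e]; group
  obtain ⟨g0, hg⟩ : ∃ g, g ∉ K := not_forall.mp fun e => hK (eq_top_iff.mpr fun g _ => e g)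
  have hu : g0 * r * g0⁻¹ ∉ K := fun e => hg (fix _ _ rK hr r1 e)
  have u2 := cj g0 r hr
  have u1 : g0 * r * g0⁻¹ ≠ 1 := fun e => r1 (conj_eq_one_iff.mp e)
  generalize g0 * r * g0⁻¹ = u at *
  have mid : ∀ v ∈ K, v * v = 1 → v ≠ 1 → ∃ w, w * w = 1 ∧ w * u * w⁻¹ = v := fun v hv v2 v1 => by
    rcases Nat.even_or_odd (orderOf (u * v)) with e | e
    · obtain ⟨m, a, b, c, d⟩ := CIT.exists_central_of_even u2 v2 e
      have h2 := fix _ v hv v2 v1 (by rwa [d, mul_inv_cancel_right])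
      exact absurd (fix u _ h2 b a (by rwa [← c, mul_inv_cancel_right])) hu
    · obtain ⟨m, a, b⟩ := CIT.exists_swap_of_odd u2 v2 e
      exact ⟨_, a, b⟩
  obtain ⟨w, w2, hw⟩ := mid r rK hr r1
  have wi := inv_eq_of_mul_eq_one_left w2
  refine ⟨K ⊓ K.comap (MulAut.conj w).toMonoidHom, inf_le_left, fun e => ?_, ?_⟩
  · obtain ⟨x, hx, ho⟩ := exists_mem_orderOf_eq_of_dvd_card Nat.prime_two e
    have h3 := fix w x hx.1 (by rw [← pow_two, ← ho, pow_orderOf_eq_one]) (by rintro rfl; simp at ho) hx.2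
    exact hu ((mul_mem_cancel_left h3).mp ((mul_mem_cancel_right (inv_mem h3)).mp (hw ▸ rK)))
  rw [← M11.card_inf_centralizer_mul _ r]
  refine Dvd.dvd.mul_left (dvd_of_eq (congrArg Set.ncard (Set.ext fun v => ?_))) _
  refine ⟨fun ⟨k, hk, e⟩ => ?_, fun ⟨d, hd, e⟩ => ⟨d, hd.1, e⟩⟩
  have hv : v ∈ K := e ▸ mul_mem (mul_mem hk rK) (inv_mem hk)
  obtain ⟨x, x2, hx⟩ := mid v hv (e ▸ cj k r hr) fun e' => r1 (conj_eq_one_iff.mp (e.trans e'))
  have h5 : x * w * r * (x * w)⁻¹ = v := by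
    rw [← hx, ← hw, mul_inv_rev, wi]
    calc _ = x * (w * w) * u * (w * w) * x⁻¹ := by group
      _ = _ := by rw [w2]; group
  have h6 := fix _ r rK hr r1 (h5 ▸ hv)
  refine ⟨_, ⟨h6, ?_⟩, h5⟩
  have := inv_mem h6
  rw [mul_inv_rev, wi, inv_eq_of_mul_eq_one_left x2] at this
  show w * (x * w) * w⁻¹ ∈ K
  rwa [← mul_assoc, mul_inv_cancel_right]

theorem no_odd (hc : Nat.card G = 898128000) {s : G} (s11 : s ^ 11 = 1) (s1 : s ≠ 1)
    (hs : Nat.card (centralizer {s}) ≤ 22) {D : Subgroup G} (h2 : ¬ 2 ∣ Nat.card D) : ¬ 275 ∣ Nat.card D := fun h3 => by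
  have : Fact (Nat.Prime 11) := ⟨by decide⟩
  obtain ⟨L, hL⟩ := FT.Hall_exists {5, 11} (FT.oddOrder D (Nat.odd_iff.mpr (by omega)))
  have h4 : 275 ∣ Nat.card L := by
    rw [← card_mul_relIndex hL.le] at h3
    refine Nat.Coprime.dvd_of_dvd_mul_right (Nat.coprime_of_dvd fun p hp e1 e2 => hL.idx p hp e2 ?_) h3
    rcases (Nat.Prime.dvd_mul hp).mp (show p ∣ 5 ^ 2 * 11 from e1) with e | e
    exacts [.inl ((Nat.prime_dvd_prime_iff_eq hp (by decide)).mp (hp.dvd_of_dvd_pow e)),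
      .inr ((Nat.prime_dvd_prime_iff_eq hp (by decide)).mp e)]
  have h5 : Nat.card L ∣ 11 * 5 ^ 3 := by
    refine Nat.Coprime.dvd_of_dvd_mul_left (m := 653184) (Nat.coprime_of_dvd fun p hp e1 e2 => ?_)
      ((card_subgroup_dvd_card L).trans hc.dvd)
    rcases hL.pi p hp e1 with rfl | rfl <;> exact absurd e2 (by decide)
  obtain ⟨a, ha⟩ := exists_prime_orderOf_dvd_card' (G := L) 11 ((by decide : 11 ∣ 275).trans h4)
  have h6 : Nat.card (zpowers a) = 11 := by rw [Nat.card_zpowers, ha]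
  have h7 := (zpowers a).card_mul_index
  let P : Sylow 11 L := (IsPGroup.of_card (n := 1) h6).toSylow fun e => by
    obtain ⟨k, hk⟩ := e
    rw [h6, hk, ← mul_assoc] at h7
    exact absurd ((Dvd.intro _ h7).trans h5) (by decide)
  have h8 := card_sylow_modEq_one 11 L
  have h9 : Nat.card (Sylow 11 L) ∣ 5 ^ 3 := P.card_dvd_index.trans
    (Nat.dvd_of_mul_dvd_mul_left (by decide : 0 < 11) (by rwa [← h7, h6] at h5))
  obtain ⟨i, hi, e⟩ := (Nat.dvd_prime_pow Nat.prime_five).mp h9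
  have : Subsingleton (Sylow 11 L) := by
    rw [e] at h8
    interval_cases i
    exacts [(Nat.card_eq_one_iff_unique.mp e).1, absurd h8 (by decide), absurd h8 (by decide), absurd h8 (by decide)]
  have h10 : (zpowers a).Normal := P.normal_of_subsingleton
  have h11 := M11.card_inf_centralizer_mul L a.1
  have h12 : {w | ∃ r ∈ L, r * a.1 * r⁻¹ = w}.ncard ≤ 11 := by
    rw [← ha, ← orderOf_coe, ← Nat.card_zpowers, ← Nat.card_coe_set_eq]
    refine Nat.card_mono (Set.toFinite _) ?_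
    rintro - ⟨r, hr, rfl⟩
    obtain ⟨k, hk⟩ := h10.conj_mem a (mem_zpowers a) ⟨r, hr⟩
    exact ⟨k, congrArg Subtype.val hk⟩
  have h13 : IsPGroup 11 (zpowers s) := .of_card (n := 1) (by rw [Nat.card_zpowers, orderOf_eq_prime s11 s1, pow_one])
  obtain ⟨q, hq⟩ := h13.nonempty_fixed_point_of_prime_not_dvd_card (G ⧸ zpowers a.1) fun e => by
    obtain ⟨k, hk⟩ := e
    have := card_eq_card_quotient_mul_card_subgroup (zpowers a.1)
    rw [hk, hc, Nat.card_zpowers, orderOf_coe, ha] at this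
    omega
  obtain ⟨g, rfl⟩ := QuotientGroup.mk_surjective q
  obtain ⟨k, hk⟩ := QuotientGroup.eq.mp (show ((s * g : G) : G ⧸ zpowers a.1) = g from hq ⟨_, mem_zpowers _⟩).symm
  have h14 := card_le_of_le (show (L ⊓ centralizer {a.1}).map (MulAut.conj g).toMonoidHom ≤ centralizer {s} by
    rintro - ⟨c, hc, rfl⟩
    have : Commute c (g⁻¹ * (s * g)) := hk ▸ Commute.zpow_right (mem_centralizer_singleton_iff.mp hc.2) k
    refine mem_centralizer_singleton_iff.mpr ?_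
    calc g * c * g⁻¹ * s = g * (c * (g⁻¹ * (s * g))) * g⁻¹ := by group
      _ = s * (g * c * g⁻¹) := by rw [this.eq]; group)
  rw [card_map_of_injective (MulAut.conj g).injective] at h14
  have := Nat.mul_le_mul (h14.trans hs) h12
  have := Nat.le_of_dvd Nat.card_pos h4
  omega

end Cfsg.Agent.McL
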