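import Cfsg.Agent.McL.Low
import Cfsg.Agent.Mat.Golay2
import Cfsg.Prelude.Def_Spor_Conway

/-! The Leech lattice: closed form, generators, automorphisms given by matrices. -/

set_option autoImplicit false

namespace Cfsg.Agent.McL

open Cfsg.Agent.Mat Cfsg.Agent.M11 Cfsg.Spor

/-- The closed form of the lattice. -/
def LL : AddSubgroup (GolayPt → ℤ) where
  carrier := {x | ∃ (m : ℤ) (q : GolayPt → ℤ), (∀ i, x i = m + 2 * q i) ∧ 8 ∣ ∑ i, x i - 4 * m ∧
    (fun i => (q i : ZMod 2)) ∈ golayCode}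
  zero_mem' := ⟨0, 0, by simp, by simp, by
    rw [show (fun i => (((0 : GolayPt → ℤ) i : ℤ) : ZMod 2)) = 0 from funext fun _ => Int.cast_zero]
    exact golayCode.zero_mem⟩
  add_mem' := by
    rintro x y ⟨m, q, h1, h2, h3⟩ ⟨m', q', h4, h5, h6⟩
    refine ⟨m + m', q + q', fun i => by rw [Pi.add_apply, h1, h4, Pi.add_apply]; ring, ?_, ?_⟩
    · simp only [Pi.add_apply, Finset.sum_add_distrib]
      omega
    · convert golayCode.add_mem h3 h6 using 1
      ext i
      simp
  neg_mem' := by
    rintro x ⟨m, q, h1, h2, h3⟩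
    refine ⟨-m, -q, fun i => by rw [Pi.neg_apply, h1, Pi.neg_apply]; ring, ?_, ?_⟩
    · simp only [Pi.neg_apply, Finset.sum_neg_distrib]
      omega
    · convert golayCode.neg_mem h3 using 1
      ext i
      simp

theorem zmod2_ne {a : ℤ} : (a : ZMod 2) ≠ 0 ↔ a % 2 = 1 := by
  rw [Ne, ZMod.intCast_zmod_eq_zero_iff_dvd]
  push_cast
  omega

theorem one_mem_golay : (1 : GolayPt → ZMod 2) ∈ golayCode := Submodule.subset_span (Set.mem_union_right _ rfl)

theorem mem_leech {x : GolayPt → ℤ} : x ∈ leechLattice ↔ x ∈ LL := by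
  constructor
  · refine fun h => (AddSubgroup.closure_le LL).mpr ?_ h
    rintro x ⟨m, h1, h2, h3⟩
    obtain ⟨w, hw, e⟩ := h3 (m + 2)
    refine ⟨m, fun i => (x i - m) / 2, fun i => ?_, h2.symm.dvd, ?_⟩
    · have := h1 i
      unfold Int.ModEq at this
      show x i = m + 2 * ((x i - m) / 2)
      omega
    · refine (congrArg (· ∈ golayCode) (funext fun i => ?_)).mpr hw
      have e1 : w i ≠ 0 ↔ x i ≡ m + 2 [ZMOD 4] := by simpa [support₂] using Finset.ext_iff.mp e i
      have e2 := h1 i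
      have e3 : (((x i - m) / 2 : ℤ) : ZMod 2) ≠ 0 ↔ w i ≠ 0 := by
        rw [e1, zmod2_ne]
        unfold Int.ModEq at e2 ⊢
        omega
      exact (by decide : ∀ a b : ZMod 2, (a ≠ 0 ↔ b ≠ 0) → a = b) _ _ e3
  · rintro ⟨m, q, h1, h2, h3⟩
    refine AddSubgroup.subset_closure ⟨m, fun i => ?_, (Int.modEq_iff_dvd.mpr h2).symm, fun k => ?_⟩
    · rw [h1]
      unfold Int.ModEq
      omega
    · by_cases h4 : (k - m) % 2 = 1
      · refine ⟨0, golayCode.zero_mem, Finset.ext fun i => ?_⟩
        simp only [support₂, Finset.mem_filter, Finset.mem_univ, true_and, h1, Int.ModEq, Pi.zero_apply, ne_eq,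
          not_true_eq_false, false_iff]
        omega
      by_cases h5 : (k - m) % 4 = 2
      · refine ⟨_, h3, Finset.ext fun i => ?_⟩
        simp only [support₂, Finset.mem_filter, Finset.mem_univ, true_and, h1, Int.ModEq, zmod2_ne]
        omega
      · refine ⟨_, golayCode.add_mem h3 one_mem_golay, Finset.ext fun i => ?_⟩
        have e : (q i : ZMod 2) + 1 = ((q i + 1 : ℤ) : ZMod 2) := by push_cast; rfl
        simp only [support₂, Finset.mem_filter, Finset.mem_univ, true_and, h1, Int.ModEq, Pi.add_apply,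
          Pi.one_apply, e, zmod2_ne]
        omega

theorem inSpan_ind {C : (GolayPt → ZMod 2) → Prop} (h0 : C 0) (ha : ∀ v w, C v → C w → C (v + w)) :
    ∀ {bs : List ℕ} {m : ℕ}, (∀ b ∈ bs, C (wOf b)) → inSpan bs m → C (wOf m)
  | [], _, _, h => by rw [show _ = 0 from h, wOf_zero]; exact h0
  | b :: _, m, hb, h => by
    have hb' := fun c hc => hb c (List.mem_cons_of_mem _ hc)
    rcases h with h | h
    · exact inSpan_ind h0 ha hb' h
    · have := ha _ _ (inSpan_ind h0 ha hb' h) (hb b List.mem_cons_self)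
      rwa [← wOf_xor, Nat.xor_assoc, Nat.xor_self, Nat.xor_zero] at this

/-- A vector from a function of the indices. -/
def vec (f : ℕ → ℤ) : GolayPt → ℤ := fun p => f (idx p)

/-- Sums over the first indices. -/
def sumI (f : ℕ → ℤ) (n : ℕ) : ℤ := @Nat.rec (fun _ => ℤ) 0 (fun i acc => Int.add acc (f i)) n

theorem sumI_eq (f : ℕ → ℤ) : ∑ p : GolayPt, f (idx p) = sumI f 24 := by
  have h : ∀ n, sumI f n = ∑ i ∈ Finset.range n, f i := fun n => by
    induction n with
    | zero => rfl
    | succ n ih => rw [Finset.sum_range_succ, ← ih]; rfl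
  rw [h, Finset.sum_range, ← eG.sum_comp]
  rfl

theorem idx_lt (p : GolayPt) : idx p < 24 := (eG p).2

/-- The generators of the lattice. -/
def gv (j i : ℕ) : ℤ :=
  if j < 24 then (if i = j then 4 else 0) + (if i = 23 then 4 else 0)
  else if j < 36 then (if ((bas.map Prod.fst).getD (j - 24) 0).testBit i then 2 else 0)
  else if i = 23 then -5 else -1

theorem leech_le {S : AddSubgroup (GolayPt → ℤ)} (h : ∀ j < 37, vec (gv j) ∈ S) : leechLattice ≤ S := by
  intro x hx
  obtain ⟨m, q, h1, h2, h3⟩ := mem_leech.mp hx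
  obtain ⟨c, hc, e⟩ := mem_golay.mp h3
  obtain ⟨q', h4, h5, h6⟩ := inSpan_ind (C := fun w => ∃ q' : GolayPt → ℤ, (fun i => 2 * q' i) ∈ S ∧ 4 ∣ ∑ i, q' i ∧
      (fun i => (q' i : ZMod 2)) = w) ⟨0, by
      rw [show (fun i => 2 * (0 : GolayPt → ℤ) i) = 0 from funext fun _ => mul_zero _]
      exact S.zero_mem, by simp, by ext; simp⟩ (by
    rintro _ _ ⟨a, a1, a2, rfl⟩ ⟨b, b1, b2, rfl⟩
    refine ⟨a + b, ?_, by simpa [Finset.sum_add_distrib] using dvd_add a2 b2, by ext; simp⟩
    convert S.add_mem a1 b1 using 1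
    ext i
    simp [mul_add]) (fun b hb => by
    obtain ⟨j, hj, rfl⟩ := List.getElem_of_mem hb
    have hj' : j < 12 := hj
    rw [← List.getD_eq_getElem _ 0 hj]
    refine ⟨fun i => if ((bas.map Prod.fst).getD j 0).testBit (idx i) then 1 else 0, ?_, ?_, ?_⟩
    · convert h (j + 24) (by omega) using 1
      ext i
      rw [vec, gv, if_neg (show ¬ j + 24 < 24 by omega), if_pos (show j + 24 < 36 by omega), Nat.add_sub_cancel]
      beta_reduce
      split_ifs <;> rfl
    · beta_reduce
      rw [sumI_eq fun i => if ((bas.map Prod.fst).getD j 0).testBit i then 1 else 0]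
      clear hb hj
      revert j
      decide +kernel
    · ext i
      rw [wOf]
      beta_reduce
      split_ifs <;> rfl) hc
  have h7 : ∀ i, ∃ w, q i - q' i = 2 * w := fun i => by
    have := (congrFun e i).trans (congrFun h6 i).symm
    exact (ZMod.intCast_eq_intCast_iff_dvd_sub _ _ 2).mp this.symm
  choose w hw using h7
  have h8 : ∑ i, x i = 24 * m + 2 * ∑ i, q' i + 4 * ∑ i, w i := by
    rw [Finset.mul_sum, Finset.mul_sum, add_assoc, ← Finset.sum_add_distrib,
      show 24 * m = ∑ _i : GolayPt, m by simp, ← Finset.sum_add_distrib]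
    exact Finset.sum_congr rfl fun i _ => by rw [h1]; linarith [hw i]
  obtain ⟨k, hk⟩ : ∃ k, ∑ i, w i + m = 2 * k := ⟨(∑ i, w i + m) / 2, by omega⟩
  have h9 : x = (fun i => 2 * q' i) - m • vec (gv 36) + ∑ i, w i • vec (gv (idx i)) - k • vec (gv 23) := by
    ext p
    have e1 : ∀ i, vec (gv (idx i)) p = (if i = p then 4 else 0) + if p = none then 4 else 0 := by
      revert p; decide +kernel
    have e2 : vec (gv 36) p = -1 - if p = none then 4 else 0 := by revert p; decide +kernel
    have e3 : vec (gv 23) p = 2 * if p = none then 4 else 0 := by revert p; decide +kernel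
    simp only [Pi.sub_apply, Pi.add_apply, Finset.sum_apply, Pi.smul_apply, smul_eq_mul, e1, e2, e3, mul_add,
      Finset.sum_add_distrib, mul_ite, mul_zero, Finset.sum_ite_eq', Finset.mem_univ, if_true, h1]
    have := hw p
    split_ifs
    · rw [← Finset.sum_mul]
      linarith
    · simp
      linarith
  rw [h9]
  exact S.sub_mem (S.add_mem (S.sub_mem h4 (S.zsmul_mem (h _ (by omega)) _))
    (S.sum_mem fun i _ => S.zsmul_mem (h _ (by have := idx_lt i; omega)) _)) (S.zsmul_mem (h _ (by omega)) _)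

end Cfsg.Agent.McL
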