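import Cfsg.Agent.McL.Leech

/-! Automorphisms of the Leech lattice given by matrices. -/

set_option autoImplicit false

namespace Cfsg.Agent.McL

open Cfsg.Agent.Mat Cfsg.Agent.M11 Cfsg.Spor

/-- The mask of odd entries. -/
def oddM (f : ℕ → ℤ) : ℕ :=
  @Nat.rec (fun _ => ℕ) 0 (fun i acc => Nat.add acc (Nat.shiftLeft (Int.toNat (f i % 2)) i)) 24

/-- Test for membership in the lattice. -/
def inLL (f : ℕ → ℤ) : Bool :=
  allN (fun i => decide ((f i - f 0) % 2 = 0) &&
    (oddM fun i => (f i - f 0) / 2).testBit i == decide ((f i - f 0) / 2 % 2 = 1)) 24 &&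
    decide ((sumI f 24 - 4 * f 0) % 8 = 0) && Nat.beq (red bas (oddM fun i => (f i - f 0) / 2)) 0

theorem inLL_spec {f : ℕ → ℤ} (h : inLL f = true) : vec f ∈ leechLattice := by
  simp only [inLL, Bool.and_eq_true, decide_eq_true_eq, Nat.beq_eq] at h
  have h1 := fun p => allN_spec h.1.1 _ (idx_lt p)
  simp only [Bool.and_eq_true, decide_eq_true_eq, beq_iff_eq] at h1
  refine mem_leech.mpr ⟨f 0, fun p => (f (idx p) - f 0) / 2, fun p => ?_, ?_,
    mem_golay.mpr ⟨_, inSpan_of_red h.2, funext fun p => ?_⟩⟩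
  · have := (h1 p).1
    show f (idx p) = f 0 + 2 * ((f (idx p) - f 0) / 2)
    omega
  · rw [show ∑ p, vec f p = _ from sumI_eq f]
    omega
  · rw [wOf, (h1 p).2]
    refine (by decide : ∀ a b : ZMod 2, (a ≠ 0 ↔ b ≠ 0) → a = b) _ _ ?_
    rw [zmod2_ne]
    split_ifs with h2 <;> simpa using h2

/-- An entry of a coded vector. -/
def dv (c i : ℕ) : ℤ := Int.subNatNat (lk c i) 8

/-- An entry of a coded matrix. -/
def am (A r c : ℕ) : ℤ := dv A (Nat.add (Nat.mul 24 r) c)

/-- The linear map of a coded matrix. -/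
def lin (A : ℕ) (x : GolayPt → ℤ) : GolayPt → ℤ := fun p => ∑ q, am A (idx p) (idx q) * x q

/-- The linear map on functions of the indices. -/
def linI (A : ℕ) (f : ℕ → ℤ) (r : ℕ) : ℤ := sumI (fun c => Int.mul (am A r c) (f c)) 24

theorem lin_vec (A : ℕ) (f : ℕ → ℤ) : lin A (vec f) = vec (linI A f) :=
  funext fun p => sumI_eq fun c => am A (idx p) c * f c

theorem lin_add (A : ℕ) (x y : GolayPt → ℤ) : lin A (x + y) = lin A x + lin A y :=
  funext fun p => by simp [lin, mul_add, Finset.sum_add_distrib]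

theorem lin_neg (A : ℕ) (x : GolayPt → ℤ) : lin A (-x) = -lin A x := funext fun p => by simp [lin]

/-- The check that a matrix gives an automorphism. -/
def matChk (A : ℕ) : Bool :=
  allN (fun c => allN (fun c' => decide (sumI (fun r => Int.mul (am A r c) (am A r c')) 24 =
    if c = c' then 64 else 0)) 24) 24 &&
  allN (fun j => allN (fun r => decide (linI A (gv j) r % 8 = 0)) 24 && inLL fun r => linI A (gv j) r / 8) 37

theorem sq_lin {A : ℕ} (h : matChk A = true) (x : GolayPt → ℤ) : sqNorm (lin A x) = 64 * sqNorm x := by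
  have h1 : ∀ q q' : GolayPt, ∑ p, am A (idx p) (idx q) * am A (idx p) (idx q') = if q = q' then 64 else 0 :=
    fun q q' => by
      have := allN_spec (allN_spec (Bool.and_eq_true_iff.mp h).1 _ (idx_lt q)) _ (idx_lt q')
      rw [decide_eq_true_eq] at this
      rw [sumI_eq fun r => am A r (idx q) * am A r (idx q')]
      refine this.trans ?_
      by_cases e : q = q'
      · rw [if_pos e, if_pos (congrArg idx e)]
      · rw [if_neg e, if_neg fun e' => e (idx_inj e')]
  calc sqNorm (lin A x) = ∑ p, ∑ q, ∑ q', x q * x q' * (am A (idx p) (idx q) * am A (idx p) (idx q')) := by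
        refine Finset.sum_congr rfl fun p _ => ?_
        rw [pow_two, lin, Finset.sum_mul_sum]
        exact Finset.sum_congr rfl fun q _ => Finset.sum_congr rfl fun q' _ => by ring
    _ = ∑ q, ∑ q', x q * x q' * ∑ p, am A (idx p) (idx q) * am A (idx p) (idx q') := by
        rw [Finset.sum_comm]
        refine Finset.sum_congr rfl fun q _ => ?_
        rw [Finset.sum_comm]
        exact Finset.sum_congr rfl fun q' _ => by rw [Finset.mul_sum]
    _ = _ := by
        simp only [h1, mul_ite, mul_zero, Finset.sum_ite_eq, Finset.mem_univ, if_true, sqNorm, Finset.mul_sum]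
        exact Finset.sum_congr rfl fun q _ => by ring

theorem exists_lin {A : ℕ} (h : matChk A = true) (x : leechLattice) :
    ∃ y : leechLattice, (8 : ℤ) • (y : GolayPt → ℤ) = lin A x := by
  let S : AddSubgroup (GolayPt → ℤ) :=
    { carrier := {x | ∃ y : leechLattice, (8 : ℤ) • (y : GolayPt → ℤ) = lin A x}
      zero_mem' := ⟨0, by ext p; simp [lin]⟩
      add_mem' := by
        rintro a b ⟨y, hy⟩ ⟨z, hz⟩
        exact ⟨y + z, by rw [lin_add, ← hy, ← hz, AddSubgroup.coe_add, smul_add]⟩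
      neg_mem' := by
        rintro a ⟨y, hy⟩
        exact ⟨-y, by rw [lin_neg, ← hy, AddSubgroup.coe_neg, smul_neg]⟩ }
  refine leech_le (S := S) (fun j hj => ?_) x.2
  have h1 := Bool.and_eq_true_iff.mp (allN_spec (Bool.and_eq_true_iff.mp h).2 j hj)
  refine ⟨⟨_, inLL_spec h1.2⟩, funext fun p => ?_⟩
  have h2 := allN_spec h1.1 _ (idx_lt p)
  rw [decide_eq_true_eq] at h2
  rw [lin_vec]
  show 8 * (linI A (gv j) (idx p) / 8) = linI A (gv j) (idx p)
  omega

theorem smul8_inj {x y : GolayPt → ℤ} (h : (8 : ℤ) • x = (8 : ℤ) • y) : x = y := funext fun p => by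
  have := congrFun h p
  simp only [Pi.smul_apply, smul_eq_mul] at this
  omega

theorem finite_sphere (N : ℤ) : {x : leechLattice | sqNorm (x : GolayPt → ℤ) = N}.Finite := by
  refine Set.Finite.of_finite_image (f := Subtype.val) ((Set.Finite.pi' fun _ => Set.finite_Icc (-N) N).subset ?_)
    Subtype.val_injective.injOn
  rintro _ ⟨x, rfl, rfl⟩ i
  have h1 : x.1 i ^ 2 ≤ sqNorm x.1 := Finset.single_le_sum (f := fun i => x.1 i ^ 2) (fun _ _ => sq_nonneg _)
    (Finset.mem_univ i)
  constructor <;> nlinarith [sq_nonneg (x.1 i - 1), sq_nonneg (x.1 i + 1), sq_nonneg (x.1 i)]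

theorem exists_co0 {A : ℕ} (h : matChk A = true) :
    ∃ g ∈ Co0, ∀ x : leechLattice, (8 : ℤ) • ((g x : leechLattice) : GolayPt → ℤ) = lin A x := by
  choose f hf using exists_lin h
  have h1 : ∀ x y, f (x + y) = f x + f y := fun x y => Subtype.ext (smul8_inj (by
    rw [hf, AddSubgroup.coe_add, lin_add, AddSubgroup.coe_add, smul_add, hf, hf]))
  have h2 : ∀ x, sqNorm (f x : GolayPt → ℤ) = sqNorm (x : GolayPt → ℤ) := fun x => by
    have e := sq_lin h x
    rw [← hf, show sqNorm ((8 : ℤ) • (f x : GolayPt → ℤ)) = 64 * sqNorm (f x : GolayPt → ℤ) by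
      simp only [sqNorm, Finset.mul_sum, Pi.smul_apply, smul_eq_mul]
      exact Finset.sum_congr rfl fun _ _ => by ring] at e
    omega
  have h3 : Function.Injective f := (injective_iff_map_eq_zero (AddMonoidHom.mk' f h1)).mpr fun x hx => by
    have e := h2 x
    rw [show f x = 0 from hx, eq_comm, show sqNorm ((0 : leechLattice) : GolayPt → ℤ) = 0 by simp [sqNorm], sqNorm,
      Finset.sum_eq_zero_iff_of_nonneg fun _ _ => sq_nonneg _] at e
    exact Subtype.ext (funext fun p => pow_eq_zero_iff two_ne_zero |>.mp (e p (Finset.mem_univ p)))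
  refine ⟨Equiv.ofBijective f ⟨h3, fun y => ?_⟩, ⟨h1, h2⟩, hf⟩
  obtain ⟨x, -, e⟩ := ((finite_sphere (sqNorm (y : GolayPt → ℤ))).injOn_iff_bijOn_of_mapsTo
    (f := f) fun x hx => (h2 x).trans hx).mp h3.injOn |>.surjOn (show y ∈ _ from rfl)
  exact ⟨x, e⟩

theorem dot_co0 {g : Equiv.Perm leechLattice} (hg : g ∈ Co0) (x y : leechLattice) :
    dotInt (g x : GolayPt → ℤ) (g y : GolayPt → ℤ) = dotInt (x : GolayPt → ℤ) (y : GolayPt → ℤ) := by
  have e : ∀ a b : GolayPt → ℤ, sqNorm (a + b) = sqNorm a + sqNorm b + 2 * dotInt a b := fun a b => by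
    simp only [sqNorm, dotInt, Finset.mul_sum, ← Finset.sum_add_distrib, Pi.add_apply]
    exact Finset.sum_congr rfl fun _ _ => by ring
  have h1 := hg.2 (x + y)
  rw [hg.1, AddSubgroup.coe_add, AddSubgroup.coe_add, e, e, hg.2, hg.2] at h1
  omega

end Cfsg.Agent.McL
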