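import Cfsg.Agent.McL.CQ

/-! Lower bounds for orders of permutation groups, and membership certificates from coset enumerations. -/

set_option autoImplicit false

namespace Cfsg.Agent.McL

open Cfsg.Agent.Mat Subgroup MulAction

/-- A tree of points reached from a starting point. -/
def orbChk (lk : ℕ → ℕ → ℕ) (cs : List ℕ) (l : List ℕ) : ℕ → Bool :=
  @List.rec ℕ (fun _ => ℕ → Bool) (fun _ => true) (fun s _ ih seen =>
    Nat.testBit seen (Nat.div s 16) && (Nat.blt (Nat.mod s 16) cs.length &&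
      (!(Nat.testBit seen (lk (cs.getD (Nat.mod s 16) 0) (Nat.div s 16))) &&
        ih (Nat.lor seen (Nat.shiftLeft 1 (lk (cs.getD (Nat.mod s 16) 0) (Nat.div s 16))))))) l

theorem orbChk_spec {lk : ℕ → ℕ → ℕ} {cs : List ℕ} {P : ℕ → Prop} (hP : ∀ c ∈ cs, ∀ i, P i → P (lk c i))
    {l : List ℕ} : ∀ {seen : ℕ}, (∀ i, seen.testBit i = true → P i) → orbChk lk cs l seen = true →
      ∃ L : List ℕ, L.Nodup ∧ L.length = l.length ∧ ∀ i ∈ L, seen.testBit i = false ∧ P i := by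
  induction l with
  | nil => exact fun _ _ => ⟨[], List.nodup_nil, rfl, by simp⟩
  | cons s l ih =>
    intro seen h1 h
    have h' : (Nat.testBit seen (s / 16) && (Nat.blt (s % 16) cs.length &&
      (!(Nat.testBit seen (lk (cs.getD (s % 16) 0) (s / 16))) &&
        orbChk lk cs l (seen ||| (1 <<< (lk (cs.getD (s % 16) 0) (s / 16))))))) = true := h
    simp only [Bool.and_eq_true, Nat.blt_eq, Bool.not_eq_true'] at h'
    obtain ⟨h2, h3, h4, h5⟩ := h'
    have h6 : P (lk (cs.getD (s % 16) 0) (s / 16)) :=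
      hP _ (by rw [List.getD_eq_getElem _ _ h3]; exact List.getElem_mem h3) _ (h1 _ h2)
    generalize lk (cs.getD (s % 16) 0) (s / 16) = x at h4 h5 h6
    obtain ⟨L, h7, h8, h9⟩ := ih (fun i hi => by
      simp only [Nat.testBit_or, Nat.one_shiftLeft, Nat.testBit_two_pow, Bool.or_eq_true, decide_eq_true_eq] at hi
      rcases hi with hi | rfl
      exacts [h1 i hi, h6]) h5
    simp only [Nat.testBit_or, Nat.one_shiftLeft, Nat.testBit_two_pow, Bool.or_eq_false_iff,
      decide_eq_false_iff_not] at h9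
    exact ⟨x :: L, List.nodup_cons.mpr ⟨fun hx => (h9 x hx).1.2 rfl, h7⟩, by simp [h8],
      List.forall_mem_cons.mpr ⟨⟨h4, h6⟩, fun i hi => ⟨(h9 i hi).1.1, (h9 i hi).2⟩⟩⟩

section

variable {M : Type*} [Group M] {n : ℕ} [MulAction M (Fin n)]

theorem orb_le [Finite M] {lk : ℕ → ℕ → ℕ} {cs l : List ℕ} {H : Subgroup M} {b : ℕ} (hb : b < n)
    (hc : ∀ c ∈ cs, ∃ g ∈ H, ∀ i : Fin n, (g • i).1 = lk c i) (h : orbChk lk cs l (Nat.shiftLeft 1 b) = true) :
    (l.length + 1) * Nat.card ↥(H ⊓ stabilizer M (⟨b, hb⟩ : Fin n)) ≤ Nat.card H := by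
  classical
  obtain ⟨L, h1, h2, h3⟩ := orbChk_spec (P := fun i => ∃ g ∈ H, (g • (⟨b, hb⟩ : Fin n)).1 = i) (by
    rintro c hc' _ ⟨g, hg, rfl⟩
    obtain ⟨g', hg', e⟩ := hc c hc'
    exact ⟨g' * g, mul_mem hg' hg, by rw [mul_smul, e]⟩) (fun i hi => by
    have hi' : (1 <<< b).testBit i = true := hi
    rw [Nat.one_shiftLeft, Nat.testBit_two_pow, decide_eq_true_eq] at hi'
    exact ⟨1, one_mem H, by rw [one_smul, ← hi']⟩) h
  have h4 : (b :: L).Nodup := List.nodup_cons.mpr ⟨fun hb' => by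
    have h5 : (1 <<< b).testBit b = false := (h3 b hb').1
    simp [Nat.one_shiftLeft] at h5, h1⟩
  rw [← Pres.card_inf_stabilizer_mul H (⟨b, hb⟩ : Fin n), mul_comm]
  refine Nat.mul_le_mul_left _ ?_
  rw [← h2, ← List.length_cons (a := b), ← List.toFinset_card_of_nodup h4, ← Set.ncard_coe_finset,
    ← Set.ncard_image_of_injective _ Fin.val_injective]
  refine Set.ncard_le_ncard fun a ha => ?_
  rcases List.mem_cons.mp (List.mem_toFinset.mp ha) with rfl | ha
  · exact ⟨_, ⟨1, one_mem H, one_smul _ _⟩, rfl⟩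
  · obtain ⟨g, hg, e⟩ := (h3 a ha).2
    exact ⟨_, ⟨g, hg, rfl⟩, e⟩

/-- A chain of orbit trees. -/
def lowC (n : ℕ) (lk : ℕ → ℕ → ℕ) (val : List ℕ → ℕ) (r : List (ℕ × List (List ℕ × ℕ) × List ℕ)) :
    List ℕ → Bool :=
  @List.rec _ (fun _ => List ℕ → Bool) (fun _ => true) (fun L _ ih F =>
    Nat.blt L.1 n && (allL (fun p => Nat.beq (val p.1) p.2 && allL (fun f => Nat.beq (lk p.2 f) f) F) L.2.1 &&
      (orbChk lk (L.2.1.map Prod.snd) L.2.2 (Nat.shiftLeft 1 L.1) && ih (L.1 :: F)))) r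

theorem lowC_le [Finite M] {lk : ℕ → ℕ → ℕ} {v : M → ℕ} (hv : ∀ (g : M) (i : Fin n), (g • i).1 = lk (v g) i)
    {ms : List M} {r : List (ℕ × List (List ℕ × ℕ) × List ℕ)} : ∀ {F : List ℕ} {H : Subgroup M},
    (∀ g ∈ cl ms, (∀ f ∈ F, lk (v g) f = f) → g ∈ H) → lowC n lk (fun w => v (ev ms w)) r F = true →
      (r.map fun L => L.2.2.length + 1).prod ≤ Nat.card H := by
  induction r with
  | nil => exact fun _ _ => Nat.card_pos
  | cons L r ih =>
    intro F H hH h
    have h' : (Nat.blt L.1 n && (allL (fun p => Nat.beq (v (ev ms p.1)) p.2 &&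
      allL (fun f => Nat.beq (lk p.2 f) f) F) L.2.1 &&
      (orbChk lk (L.2.1.map Prod.snd) L.2.2 (Nat.shiftLeft 1 L.1) &&
        lowC n lk (fun w => v (ev ms w)) r (L.1 :: F)))) = true := h
    simp only [Bool.and_eq_true, Nat.blt_eq, allL_iff, Nat.beq_eq] at h'
    obtain ⟨h1, h2, h3, h4⟩ := h'
    rw [List.map_cons, List.prod_cons]
    refine le_trans (Nat.mul_le_mul_left _ (ih (fun g hg e => mem_inf.mpr
      ⟨hH g hg fun f hf => e f (List.mem_cons_of_mem _ hf), Fin.ext ((hv g _).trans (e _ List.mem_cons_self))⟩) h4))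
      (orb_le h1 (fun c hc => ?_) h3)
    obtain ⟨p, hp, rfl⟩ := List.mem_map.mp hc
    exact ⟨ev ms p.1, hH _ (ev_mem_cl _ _) fun f hf => by rw [(h2 p hp).1, (h2 p hp).2 f hf],
      fun i => by rw [hv, (h2 p hp).1]⟩

theorem lowC_cl [Finite M] {lk : ℕ → ℕ → ℕ} {v : M → ℕ} (hv : ∀ (g : M) (i : Fin n), (g • i).1 = lk (v g) i)
    {ms : List M} {r : List (ℕ × List (List ℕ × ℕ) × List ℕ)}
    (h : lowC n lk (fun w => v (ev ms w)) r [] = true) : (r.map fun L => L.2.2.length + 1).prod ≤ Nat.card (cl ms) :=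
  lowC_le hv (fun _ hg _ => hg) h

end

section

variable {X : Type*} [Group X]

/-- The check that words lie in the subgroup of a partial coset enumeration. -/
def memChk (D : TCD) (rels rels' subs : List (List ℕ)) (J : List ℕ) (ws : List (List ℕ × ℕ)) : Bool :=
  allL (fun r => rels.contains r) rels' && ivChk D rels' && allI (edgeChk D rels' subs) J 0 &&
    allL (fun p => walk D J.length p.1.length p.2 0 p.1 fun _ v => Nat.beq v 0) ws

theorem memChk_spec {gs : List X} {H : Subgroup X} {rels rels' subs : List (List ℕ)} {iv P E : ℕ} {J : List ℕ}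
    {ws : List (List ℕ × ℕ)} {k : ℕ} (h : memChk ⟨k, iv, P, E⟩ rels rels' subs J ws = true) (hk : gs.length = k)
    (hrel : ∀ r ∈ rels, ev gs r = 1) (hsub : ∀ r ∈ subs, ev gs r ∈ H) : ∀ p ∈ ws, ev gs p.1 ∈ H := by
  simp only [memChk, Bool.and_eq_true, allL_iff] at h
  obtain ⟨⟨⟨h1, h2⟩, h3⟩, h4⟩ := h
  have T : TCH gs H ⟨k, iv, P, E⟩ rels' subs := ⟨hk, fun r hr => hrel r (List.contains_iff_mem.mp (h1 r hr)), hsub, h2⟩
  intro p hp
  obtain ⟨-, m, e1, e2⟩ := T.walk (i := J.length) (by simpa using T.edges (lo := 0) (by simp) h3) _ _ _ _ _ (h4 p hp)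
  rwa [Nat.eq_of_beq_eq_true e2, T.rep_zero, one_mul, inv_one, mul_one] at e1

theorem ev_subst (xs : List X) (d : List (List ℕ)) (w : List ℕ) :
    ev (d.map (ev xs)) w = ev xs (w.flatMap fun a => d.getD a []) := by
  induction w with
  | nil => rfl
  | cons a w ih => rw [List.flatMap_cons, ev_append, ev, ih, show (1 : X) = ev xs [] from rfl, List.getD_map]

theorem ev_zip {Y : Type*} [Group Y] {xs : List X} {ys : List Y} (h : xs.length = ys.length) (w : List ℕ) :
    ev (xs.zip ys) w = (ev xs w, ev ys w) := by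
  have e1 := map_ev (MonoidHom.fst X Y) (xs.zip ys) w
  have e2 := map_ev (MonoidHom.snd X Y) (xs.zip ys) w
  rw [show (MonoidHom.fst X Y : X × Y → X) = Prod.fst from rfl, List.map_fst_zip h.le] at e1
  rw [show (MonoidHom.snd X Y : X × Y → Y) = Prod.snd from rfl, List.map_snd_zip h.ge] at e2
  exact Prod.ext e1 e2

end

end Cfsg.Agent.McL
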