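import Cfsg.Agent.McL.PData

/-! The 275 vectors permuted by the McLaughlin group. -/

set_option autoImplicit false

namespace Cfsg.Agent.McL

open Cfsg.Agent.Mat Cfsg.Agent.M11 Cfsg.Spor

theorem leech_word {x : GolayPt → ℤ} (hx : x ∈ leechLattice) : ∃ (z : GolayPt → ℤ) (c : ℕ),
    inSpan (bas.map Prod.fst) c ∧ (∀ i, c.testBit (idx i) = true ↔ z i % 2 = 1) ∧
      ((∀ i, x i = 2 * z i) ∨ ∀ i, x i = 1 + 2 * z i) := by
  obtain ⟨m, q, h1, -, h3⟩ := mem_leech.mp hx
  obtain ⟨c, hc, e⟩ := mem_golay.mp (golayCode.add_mem h3 (golayCode.smul_mem ((m / 2 : ℤ) : ZMod 2) one_mem_golay))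
  refine ⟨fun i => q i + m / 2, c, hc, fun i => ?_, ?_⟩
  · have e1 : ((q i + m / 2 : ℤ) : ZMod 2) = wOf c i := by simpa using congrFun e i
    rw [← zmod2_ne, e1, wOf]
    split_ifs with h <;> simp [h]
  · rcases Int.emod_two_eq_zero_or_one m with h | h
    · exact Or.inl fun i => by rw [h1]; beta_reduce; omega
    · exact Or.inr fun i => by rw [h1]; beta_reduce; omega

theorem wt_sum (c : ℕ) : (wt c : ℤ) = ∑ i : GolayPt, if c.testBit (idx i) then 1 else 0 := by
  rw [wt_eq, Finset.card_filter]
  push_cast
  rfl

theorem sum_two (a b : ℤ) : ∑ i : GolayPt, ((if i = none then a else 0) + if i = some 0 then b else 0) = a + b := by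
  simp [Finset.sum_add_distrib]

theorem two_le {f : GolayPt → ℤ} (h : ∀ i, 0 ≤ f i) : f none + f (some 0) ≤ ∑ i, f i := by
  rw [← sum_two]
  refine Finset.sum_le_sum fun i _ => ?_
  split_ifs with h1 h2 h2
  · cases h1.symm.trans h2
  · rw [h1, add_zero]
  · rw [h2, zero_add]
  · exact h i

theorem two_eq {f : GolayPt → ℤ} (h : ∀ i, 0 ≤ f i) (e : ∑ i, f i = f none + f (some 0)) {i : GolayPt}
    (h1 : i ≠ none) (h2 : i ≠ some 0) : f i = 0 := by
  have := (Finset.sum_eq_sum_iff_of_le (s := Finset.univ)
    (f := fun i => (if i = none then f none else 0) + if i = some 0 then f (some 0) else 0) (g := f) fun i _ => by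
    split_ifs with h1 h2 h2
    · cases h1.symm.trans h2
    · rw [h1, add_zero]
    · rw [h2, zero_add]
    · exact h i).mp (by rw [sum_two, e]) i (Finset.mem_univ i)
  rw [if_neg h1, if_neg h2] at this
  exact this.symm

theorem sq_sub_nonneg (a : ℤ) : 0 ≤ a ^ 2 - a := by nlinarith [sq_nonneg (2 * a - 1), Int.emod_emod_of_dvd]

theorem of_mask {c : ℕ} (hc : inSpan (bas.map Prod.fst) c) (h8 : wt c = 8) (h : c.testBit 23 = true) :
    ∃ j < 275, ∀ i, pv j i = mv c i := by
  have h1 := allSpan_spec ml_chk hc
  simp only [Nat.zero_xor, h8, h, Bool.or_eq_true, Bool.and_eq_true, memN_iff] at h1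
  obtain ⟨k, hk, rfl⟩ := List.getElem_of_mem (show c ∈ ML by simpa using h1)
  have h2 : ML.length = 253 := by decide +kernel
  exact ⟨k + 22, by omega, fun i => by rw [pv, if_neg (by omega), Nat.add_sub_cancel, List.getD_eq_getElem _ _ hk]⟩

theorem wt_cases {c : ℕ} (hc : inSpan (bas.map Prod.fst) c) : wt c = 0 ∨ 8 ≤ wt c := by
  have h1 := allSpan_spec ml_chk hc
  simp only [Nat.zero_xor, Bool.or_eq_true, Bool.and_eq_true, Nat.beq_eq, Nat.ble_eq] at h1
  exact h1.imp_right And.left

theorem classify {x : GolayPt → ℤ} (hx : x ∈ leechLattice) (h1 : ∑ i, x i ^ 2 = 32) (h2 : x none + x (some 0) = 4)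
    (h3 : 4 * x none + ∑ i, x i = 24) : ∃ j < 275, x = vec (pv j) := by
  obtain ⟨z, c, hc, hz, h | h⟩ := leech_word hx
  · have e1 : ∑ i, z i ^ 2 = 8 := by
      simp only [h, mul_pow, ← Finset.mul_sum] at h1
      omega
    have e2 : 4 * z none + ∑ i, z i = 12 := by
      simp only [h, ← Finset.mul_sum] at h3
      omega
    have e3 : z (some 0) = 2 - z none := by
      simp only [h] at h2
      omega
    have e4 : ∑ i, (z i ^ 2 - z i) = 4 * z none - 4 := by rw [Finset.sum_sub_distrib]; omega
    have e5 := two_le fun i => sq_sub_nonneg (z i)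
    have e6 := two_le fun i => sq_nonneg (z i)
    rw [e4, e3] at e5
    rw [e1, e3] at e6
    have e7 : z none = 1 ∨ z none = 2 := by
      have : 1 ≤ z none := by nlinarith
      have : z none < 3 := by nlinarith
      omega
    rcases e7 with e7 | e7
    · have e8 : ∀ i, z i = if c.testBit (idx i) then 1 else 0 := fun i => by
        have e9 := (Finset.sum_eq_zero_iff_of_nonneg fun i _ => sq_sub_nonneg (z i)).mp (e4.trans (by omega)) i
          (Finset.mem_univ i)
        have e10 : z i = 0 ∨ z i = 1 := by
          rcases mul_eq_zero.mp (show z i * (z i - 1) = 0 by linarith) with h | h <;> omega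
        have := hz i
        split_ifs with h4 <;> simp only [h4, true_iff, Bool.false_eq_true, false_iff] at this <;> omega
      have e9 : wt c = 8 := by
        have := wt_sum c
        simp only [← e8] at this
        omega
      obtain ⟨j, hj, e⟩ := of_mask hc e9 ((hz none).mpr (by omega))
      refine ⟨j, hj, funext fun i => ?_⟩
      rw [vec, e, mv, if_pos (show c.testBit 0 = true from (hz (some 0)).mpr (by omega)), h, e8]
      split_ifs <;> rfl
    · have e8 : (wt c : ℤ) + 4 ≤ 8 := by
        rw [← e1, wt_sum, show (4 : ℤ) = _ from (sum_two 4 0).symm, ← Finset.sum_add_distrib]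
        refine Finset.sum_le_sum fun i _ => ?_
        have := hz i
        by_cases h4 : i = none
        · subst h4
          rw [if_neg (by rw [this]; omega), e7]
          simp
        · rw [if_neg h4, ite_self]
          split_ifs with h5
          · have : z i ≠ 0 := by have := this.mp h5; omega
            have := sq_pos_of_ne_zero this
            omega
          · simpa using sq_nonneg (z i)
      have e9 : ∀ i, ∃ s, z i = 2 * s := fun i => by
        have e10 : (wt c : ℤ) = 0 := by have := wt_cases hc; omega
        rw [wt_sum, Finset.sum_eq_zero_iff_of_nonneg fun i _ => by split_ifs <;> simp] at e10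
        have e11 := e10 i (Finset.mem_univ i)
        have := hz i
        refine ⟨z i / 2, ?_⟩
        split_ifs at e11 with h5
        · simp at e11
        · simp only [h5, Bool.false_eq_true, false_iff] at this
          omega
      choose s hs using e9
      have f1 : ∑ i, s i ^ 2 = 2 := by
        simp only [hs, mul_pow, ← Finset.mul_sum] at e1
        omega
      have f2 : s none = 1 := by have := hs none; omega
      have f3 : s (some 0) = 0 := by have := hs (some 0); omega
      have f4 : ∑ i, s i = 2 := by
        simp only [hs, ← Finset.mul_sum] at e2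
        omega
      have f5 : ∀ i, s i = 0 ∨ s i = 1 := fun i => by
        have e9 := (Finset.sum_eq_zero_iff_of_nonneg fun i _ => sq_sub_nonneg (s i)).mp
          (by rw [Finset.sum_sub_distrib]; omega) i (Finset.mem_univ i)
        rcases mul_eq_zero.mp (show s i * (s i - 1) = 0 by linarith) with h | h <;> omega
      obtain ⟨p, p1, p2⟩ : ∃ p, p ≠ none ∧ s p = 1 := by
        by_contra! hn
        rw [Finset.sum_eq_single none (fun p _ hp => (f5 p).resolve_right (hn p hp)) (by simp)] at f4
        omega
      have p3 : p ≠ some 0 := fun e => by rw [e] at p2; omega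
      have f6 : ∀ i, i ≠ none → i ≠ p → s i = 0 := fun i i1 i2 => by
        have := Finset.sum_le_sum_of_subset_of_nonneg (f := s) (Finset.subset_univ {none, p, i})
          fun k _ _ => by have := f5 k; omega
        rw [Finset.sum_insert (by simp [p1.symm, i1.symm]), Finset.sum_pair i2.symm] at this
        have := f5 i
        omega
      have p4 : ∀ p : GolayPt, p ≠ none → p ≠ some 0 → idx p - 1 < 22 ∧ ∀ i, pv (idx p - 1) (idx i) =
          if i = none ∨ i = p then 4 else 0 := by decide +kernel
      refine ⟨idx p - 1, by have := (p4 p p1 p3).1; omega, funext fun i => ?_⟩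
      rw [vec, (p4 p p1 p3).2, h, hs]
      split_ifs with h4
      · rcases h4 with rfl | rfl <;> omega
      · rw [f6 i (fun e => h4 (Or.inl e)) fun e => h4 (Or.inr e)]
        rfl
  · have e1 : ∑ i, (z i ^ 2 + z i) = 2 := by
      rw [show ∑ i, x i ^ 2 = ∑ i : GolayPt, (1 + 4 * (z i ^ 2 + z i)) from
        Finset.sum_congr rfl fun i _ => by rw [h]; ring, Finset.sum_add_distrib, ← Finset.mul_sum] at h1
      have : ∑ _i : GolayPt, (1 : ℤ) = 24 := by simp
      omega
    have e2 : 4 * z none + ∑ i, z i = -2 := by
      simp only [h, Finset.sum_add_distrib, ← Finset.mul_sum] at h3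
      have : ∑ _i : GolayPt, (1 : ℤ) = 24 := by simp
      omega
    have e3 : z (some 0) = 1 - z none := by
      simp only [h] at h2
      omega
    have e0 : ∀ i, 0 ≤ z i ^ 2 + z i := fun i => by simpa using sq_sub_nonneg (-z i)
    have e5 := two_le e0
    rw [e1, e3] at e5
    have e7 : z none = 0 ∨ z none = 1 := by
      have : -1 < z none := by nlinarith
      have : z none < 2 := by nlinarith
      omega
    have e8 : ∀ i, z i = ((if i = none then 2 * z none else 0) + if i = some 0 then 2 * z (some 0) else 0) -
        if c.testBit (idx i) then 1 else 0 := fun i => by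
      have := hz i
      by_cases i1 : i = none
      · subst i1
        rw [if_pos rfl, if_neg (by simp)]
        split_ifs with h4 <;> simp only [h4, true_iff, Bool.false_eq_true, false_iff] at this <;> omega
      by_cases i2 : i = some 0
      · subst i2
        rw [if_neg i1, if_pos rfl]
        split_ifs with h4 <;> simp only [h4, true_iff, Bool.false_eq_true, false_iff] at this <;> omega
      have e9 := two_eq e0 (by rw [e1, e3]; rcases e7 with e | e <;> rw [e] <;> rfl) i1 i2
      have e10 : z i = 0 ∨ z i = -1 := by
        rcases mul_eq_zero.mp (show z i * (z i + 1) = 0 by linarith) with h | h <;> omega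
      rw [if_neg i1, if_neg i2]
      split_ifs with h4 <;> simp only [h4, true_iff, Bool.false_eq_true, false_iff] at this <;> omega
    have e9 : ∑ i, z i = 2 - wt c := by
      rw [Finset.sum_congr rfl fun i _ => e8 i, Finset.sum_sub_distrib, sum_two, wt_sum]
      omega
    have e10 := wt_cases hc
    obtain ⟨j, hj, e⟩ := of_mask hc (by omega) ((hz none).mpr (by omega))
    refine ⟨j, hj, funext fun i => ?_⟩
    have e11 : ¬ c.testBit 0 = true := fun e => by have := (hz (some 0)).mp e; omega
    rw [vec, e, mv, if_neg e11, h]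
    by_cases i1 : i = none
    · rw [i1, if_pos (show idx none = 23 from rfl)]
      omega
    · rw [if_neg fun e : idx i = 23 => i1 (idx_inj e), e8, if_neg i1, show z (some 0) = 0 by omega]
      split_ifs <;> rfl

end Cfsg.Agent.McL
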