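import Cfsg.Agent.McL.Pts
import Cfsg.Agent.McL.BData

/-! The McLaughlin group as a group of permutations of 275 points. -/

set_option autoImplicit false
set_option maxRecDepth 100000

namespace Cfsg.Agent.McL

open Cfsg.Agent.Mat Cfsg.Agent.M11 Cfsg.Spor Subgroup MulAction

attribute [local irreducible] sym baseChk

theorem pc_spec {j : ℕ} (hj : j < 275) : vec (dv (pc j)) ∈ leechLattice ∧ ∑ i, vec (dv (pc j)) i ^ 2 = 32 ∧
    dv (pc j) 23 + dv (pc j) 0 = 4 ∧ 4 * dv (pc j) 23 + ∑ i, vec (dv (pc j)) i = 24 ∧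
    ((ad 0).testBit j = true ↔ dotInt (vec (dv (pc 0))) (vec (dv (pc j))) = 8) := by
  have h := allN_spec pc_chk j hj
  simp only [Bool.and_eq_true, decide_eq_true_eq, beq_iff_eq] at h
  obtain ⟨⟨⟨⟨h1, h2⟩, h3⟩, h4⟩, h5⟩ := h
  refine ⟨inLL_spec h1, ?_, h3, ?_, ?_⟩
  · rw [← h2, ← sumI_eq]
    exact Finset.sum_congr rfl fun i _ => pow_two _
  · rw [← h4, ← sumI_eq]
    rfl
  · rw [h5, decide_eq_true_eq, ← sumI_eq]
    rfl

/-- The points as lattice vectors. -/
def pL (j : Fin 275) : leechLattice := ⟨_, (pc_spec j.2).1⟩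

theorem pL_inj : Function.Injective pL := fun i j h => by
  have h1 := (ndM_spec nd_chk).1
  rw [List.nodup_map_iff_inj_on List.nodup_range] at h1
  refine Fin.ext (h1 i (List.mem_range.mpr i.2) j (List.mem_range.mpr j.2) ?_)
  rw [pack_congr (g := lk (pc j)) fun c hc => ?_]
  have h2 := congrFun (congrArg Subtype.val h) (pt c)
  simp only [pL, vec, idx_pt hc, dv, Int.subNatNat_eq_coe] at h2
  omega

theorem vec_pv {j : ℕ} (hj : j < 275) : vec (pv j) = vec (dv (pc j)) := funext fun p =>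
  of_decide_eq_true (allN_spec (allN_spec pv_chk j hj) _ (idx_lt p))

theorem dot_U (x : GolayPt → ℤ) : dotInt x vecU = 4 * (x none + x (some 0)) := by
  rw [mul_add, ← sum_two]
  refine Finset.sum_congr rfl fun i _ => ?_
  unfold vecU
  by_cases h1 : i = none
  · subst h1
    simp [mul_comm]
  by_cases h2 : i = some 0
  · subst h2
    simp [mul_comm]
  · simp [h1, h2]

theorem dot_V (x : GolayPt → ℤ) : dotInt x vecV = -(4 * x none + ∑ i, x i) := by
  rw [show 4 * x none = ∑ i : GolayPt, if i = none then 4 * x none else 0 by simp, ← Finset.sum_add_distrib,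
    ← Finset.sum_neg_distrib]
  refine Finset.sum_congr rfl fun i _ => ?_
  unfold vecV
  split_ifs with h
  · rw [h]; ring
  · ring

theorem mcl_U (g : McL) : g.1 leechU = leechU := (mem_inf.mp g.2).2

theorem mcl_V (g : McL) : g.1 leechV = leechV := (mem_inf.mp (mem_inf.mp g.2).1).2

theorem mcl_co0 (g : McL) : g.1 ∈ Co0 := (mem_inf.mp (mem_inf.mp g.2).1).1

theorem exists_img (g : McL) (j : Fin 275) : ∃ k, g.1 (pL j) = pL k := by
  obtain ⟨-, h1, h2, h3, -⟩ := pc_spec j.2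
  have e1 := dot_co0 (mcl_co0 g) (pL j) leechU
  have e2 := dot_co0 (mcl_co0 g) (pL j) leechV
  rw [mcl_U] at e1
  rw [mcl_V] at e2
  change dotInt _ vecU = dotInt _ vecU at e1
  change dotInt _ vecV = dotInt _ vecV at e2
  rw [dot_U, dot_U] at e1
  rw [dot_V, dot_V] at e2
  obtain ⟨k, hk, e⟩ := classify (g.1 (pL j)).2 (((mcl_co0 g).2 (pL j)).trans h1)
    (by have : (pL j).1 none + (pL j).1 (some 0) = 4 := h2; omega)
    (by have : 4 * (pL j).1 none + ∑ i, (pL j).1 i = 24 := h3; omega)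
  exact ⟨⟨k, hk⟩, Subtype.ext (e.trans (vec_pv hk))⟩

theorem exists_rho : ∃ ρ : McL →* CQ 275, Function.Injective ρ ∧ ∀ g j, g.1 (pL j) = pL (ρ g • j) := by
  choose f hf using exists_img
  have h1 : ∀ g, Function.Bijective (f g) := fun g => Finite.injective_iff_bijective.mp fun i j e =>
    pL_inj (g.1.injective (by rw [hf, hf, e]))
  let ρ0 : McL →* Equiv.Perm (Fin 275) := MonoidHom.mk' (fun g => Equiv.ofBijective _ (h1 g)) fun g h =>
    Equiv.ext fun j => pL_inj (by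
      show pL (f (g * h) j) = pL (f g (f h j))
      rw [← hf, ← hf, ← hf]
      rfl)
  have h2 : ∀ g j, g.1 (pL j) = pL ((CQ.equiv.toMonoidHom.comp ρ0) g • j) := fun g j => by
    rw [hf]
    show _ = pL (CQ.equiv.symm (CQ.equiv (ρ0 g)) j)
    rw [MulEquiv.symm_apply_apply]
    rfl
  refine ⟨_, (injective_iff_map_eq_one _).mpr fun g hg => Subtype.ext (Equiv.ext fun x => ?_), h2⟩
  have e1 := dot_co0 (mcl_co0 g) x leechU
  have e2 := dot_co0 (mcl_co0 g) x leechV
  rw [mcl_U] at e1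
  rw [mcl_V] at e2
  change dotInt _ vecU = dotInt _ vecU at e1
  change dotInt _ vecV = dotInt _ vecV at e2
  rw [dot_U, dot_U] at e1
  rw [dot_V, dot_V] at e2
  have e3 : ∀ p, (g.1 x).1 p - x.1 p = ((g.1 x).1 none - x.1 none) * ((if p = none then 2 else 0) - 1) := fun p => by
    by_cases p1 : p = none
    · rw [if_pos p1, p1]; ring
    rw [if_neg p1]
    by_cases p2 : p = some 0
    · rw [p2]; omega
    have p4 : ∀ p : GolayPt, p ≠ none → p ≠ some 0 → idx p - 1 < 275 ∧ ∀ i, pv (idx p - 1) (idx i) =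
      (if i = none then 4 else 0) + if i = p then 4 else 0 := by decide +kernel
    obtain ⟨p5, p6⟩ := p4 p p1 p2
    have e4 := dot_co0 (mcl_co0 g) x (pL ⟨_, p5⟩)
    rw [h2, hg, one_smul] at e4
    simp only [pL, ← vec_pv p5, dotInt, vec, p6, mul_add, mul_ite, mul_zero, Finset.sum_add_distrib,
      Finset.sum_ite_eq', Finset.mem_univ, if_true] at e4
    omega
  have e4 : ∑ p, ((g.1 x).1 p - x.1 p) = ((g.1 x).1 none - x.1 none) * (2 - 24) := by
    rw [Finset.sum_congr rfl fun p _ => e3 p, ← Finset.mul_sum]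
    simp
  rw [Finset.sum_sub_distrib] at e4
  refine Subtype.ext (funext fun p => ?_)
  have := e3 p
  rw [show (g.1 x).1 none - x.1 none = 0 by omega, zero_mul] at this
  exact sub_eq_zero.mp this

section

variable {ρ : McL →* CQ 275} (hρ : ∀ g j, g.1 (pL j) = pL (ρ g • j))
include hρ

theorem mem_of_act {A : ℕ} {x : CQ 275} (h : actChk A x.1 = true) : x ∈ ρ.range := by
  simp only [actChk, Bool.and_eq_true, frc_eq] at h
  obtain ⟨g, hg, e⟩ := exists_co0 h.1.1
  have h1 := fun p => allN_spec h.1.2 _ (idx_lt p)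
  simp only [Bool.and_eq_true, decide_eq_true_eq] at h1
  have h2 : vecU = vec uI := by decide +kernel
  have h3 : vecV = vec vI := by decide +kernel
  refine ⟨⟨g, mem_inf.mpr ⟨mem_inf.mpr ⟨hg, Subtype.ext (smul8_inj ?_)⟩, Subtype.ext (smul8_inj ?_)⟩⟩,
    eq_of_smul_eq_smul (α := Fin 275) fun j => pL_inj ((hρ _ j).symm.trans (Subtype.ext (smul8_inj ?_)))⟩
  · refine (e _).trans ?_
    show lin A vecV = 8 • vecV
    rw [h3, lin_vec]
    exact funext fun p => (h1 p).2
  · refine (e _).trans ?_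
    show lin A vecU = 8 • vecU
    rw [h2, lin_vec]
    exact funext fun p => (h1 p).1
  · refine (e _).trans ?_
    show lin A (vec (dv (pc j.1))) = (8 : ℤ) • vec (dv (pc (x • j).1))
    rw [lin_vec, CQ.smul_val]
    exact funext fun p => of_decide_eq_true (allN_spec (allN_spec h.2 j j.2) _ (idx_lt p))

theorem g4_mem : ∀ i ∈ [7, 9, 11, 13], ms.getD i 1 ∈ ρ.range := by
  have h := g4_eq
  have h0 := act0
  have h1 := act1
  have h2 := act2
  have h3 := act3
  rw [h] at h0 h1 h2 h3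
  simp only [List.forall_mem_cons]
  exact ⟨mem_of_act hρ h0, mem_of_act hρ h1, mem_of_act hρ h2, mem_of_act hρ h3, by simp⟩

theorem ms_le : cl ms ≤ ρ.range := cl_le fun x hx => by
  have h := g4_mem hρ
  simp only [List.forall_mem_cons] at h
  rw [ms_eq] at hx
  obtain ⟨w, -, rfl⟩ := List.mem_map.mp hx
  refine ev_mem ?_ w
  simp only [List.forall_mem_cons, one_mem, inv_mem_iff, h, true_and]
  simp

theorem adj_tab {i : ℕ} (hi : i < 275) (j : Fin 275) :
    (ad i).testBit j = true ↔ dotInt (vec (dv (pc i))) (pL j).1 = 8 := by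
  obtain ⟨L, h1, h2, h3⟩ := orbChk_spec (P := fun i => i < 275 ∧ ∀ j : Fin 275,
    (ad i).testBit j = true ↔ dotInt (vec (dv (pc i))) (pL j).1 = 8) (fun c hc i hi => by
      have h1 := allN_spec (allL_iff.mp tab_chk c hc) i hi.1
      simp only [frc_eq] at h1
      rw [g4_eq] at hc
      obtain ⟨k, hk, rfl⟩ := List.mem_map.mp hc
      obtain ⟨g, hg⟩ := g4_mem hρ k hk
      rw [← hg] at h1 ⊢
      refine ⟨lq_lt _ hi.1, fun j => ?_⟩
      obtain ⟨j, rfl⟩ := MulAction.surjective (ρ g) j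
      have h2 := dot_co0 (mcl_co0 g) (pL ⟨i, hi.1⟩) (pL j)
      rw [hρ, hρ] at h2
      rw [CQ.smul_val, beq_iff_eq.mp (allN_spec h1 j j.2), hi.2, ← CQ.smul_val (ρ g) ⟨i, hi.1⟩]
      exact Eq.congr_left h2.symm) (fun i hi => by
      have hi' : (1 <<< 0).testBit i = true := hi
      rw [Nat.one_shiftLeft, Nat.testBit_two_pow, decide_eq_true_eq] at hi'
      subst hi'
      exact ⟨by decide, fun j => (pc_spec j.2).2.2.2.2⟩) tree_chk
  rcases Nat.eq_zero_or_pos i with rfl | h0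
  · exact (pc_spec j.2).2.2.2.2
  have h4 : L.toFinset = Finset.Ico 1 275 := Finset.eq_of_subset_of_card_le (fun a ha => by
    obtain ⟨h5, h6⟩ := h3 a (List.mem_toFinset.mp ha)
    refine Finset.mem_Ico.mpr ⟨Nat.pos_of_ne_zero ?_, h6.1⟩
    rintro rfl
    cases h5) (by rw [List.toFinset_card_of_nodup h1, h2]; decide +kernel)
  exact (h3 i (List.mem_toFinset.mp (h4 ▸ Finset.mem_Ico.mpr ⟨h0, hi⟩))).2.2 j

theorem adj_rho {x : CQ 275} (hx : x ∈ ρ.range) : Adj x := by
  obtain ⟨g, rfl⟩ := hx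
  intro i hi j hj
  have h2 := dot_co0 (mcl_co0 g) (pL ⟨i, hi⟩) (pL ⟨j, hj⟩)
  rw [hρ, hρ] at h2
  rw [Bool.eq_iff_iff, ← CQ.smul_val (ρ g) ⟨j, hj⟩, adj_tab hρ (lq_lt _ hi), adj_tab hρ hi ⟨j, hj⟩,
    ← CQ.smul_val (ρ g) ⟨i, hi⟩]
  exact Eq.congr_left h2

omit hρ in
theorem look_eq {g : CQ 275} {F : List (ℕ × ℕ)} (hF : ∀ p ∈ F, p.1 < 275 ∧ lq g.1 p.1 = p.2) (b : ℕ) :
    look F b = 275 ∨ look F b = lq g.1 b := by
  induction F with
  | nil => exact Or.inl rfl
  | cons p F ih =>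
    show @Bool.rec (fun _ => ℕ) (look F b) p.2 (Nat.beq p.1 b) = 275 ∨
      @Bool.rec (fun _ => ℕ) (look F b) p.2 (Nat.beq p.1 b) = _
    cases h : Nat.beq p.1 b
    · exact ih fun q hq => hF q (List.mem_cons_of_mem _ hq)
    · exact Or.inr (by rw [← Nat.eq_of_beq_eq_true h]; exact (hF p List.mem_cons_self).2.symm)

theorem leaf3_rho {x : CQ 275} (hx : x ∈ ρ.range) {F : List (ℕ × ℕ)}
    (hF : ∀ p ∈ F, p.1 < 275 ∧ lq x.1 p.1 = p.2) : leaf3 F = true := by
  obtain ⟨g, rfl⟩ := hx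
  rw [leaf3, Bool.or_eq_true, or_iff_not_imp_left, anyL_iff]
  intro h
  have h1 : ∀ b ∈ r3, look F b = lq (ρ g).1 b := fun b hb =>
    (look_eq hF b).resolve_left fun e => h ⟨b, hb, by rw [e]; rfl⟩
  have h2 := Bool.and_eq_true_iff.mp z3_chk
  let φ : leechLattice →+ leechLattice := AddMonoidHom.mk' g.1 (mcl_co0 g).1
  let q : ℕ → leechLattice := fun b => pL (Fin.ofNat 275 b)
  have h3 : ∀ b ∈ r3, b < 275 := by decide
  have h4 : ∀ (l : List ℕ) (p : GolayPt), (∀ b ∈ l, b < 275) → (l.map q).sum.1 p = (l.map fun b => dv (pc b) (idx p)).sum ∧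
      (φ (l.map q).sum).1 p = (l.map fun b => dv (pc (lq (ρ g).1 b)) (idx p)).sum := fun l p hl => by
    induction l with
    | nil => simp
    | cons b l ih =>
      have hb := hl b List.mem_cons_self
      have e : Fin.ofNat 275 b = ⟨b, hb⟩ := Fin.ext (Nat.mod_eq_of_lt hb)
      have ih' := ih fun c hc => hl c (List.mem_cons_of_mem _ hc)
      simp only [List.map_cons, List.sum_cons, map_add, AddSubgroup.coe_add, Pi.add_apply, ih'.1, ih'.2,
        add_left_inj]
      refine ⟨by simp only [q, e]; rfl, ?_⟩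
      show (g.1 (pL (Fin.ofNat 275 b))).1 p = _
      rw [hρ, e, ← CQ.smul_val (ρ g) ⟨b, hb⟩]
      rfl
  have h5 : vecU = vec uI := by decide +kernel
  have h6 : vecV = vec vI := by decide +kernel
  have h7 : (3 : ℤ) • (⟨_, inLL_spec h2.1⟩ : leechLattice) = (2 : ℤ) • (r3.map q).sum + (2 : ℤ) • leechU + leechV :=
    Subtype.ext (funext fun p => by
      have := of_decide_eq_true (allN_spec h2.2 _ (idx_lt p))
      rw [← (h4 r3 p h3).1] at this
      simp only [AddSubgroup.coe_add, AddSubgroup.coe_zsmul, Pi.add_apply, Pi.smul_apply, smul_eq_mul, leechU, leechV,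
        h5, h6]
      exact this)
  have h8 := congrArg φ h7
  rw [map_zsmul, map_add, map_add, map_zsmul, map_zsmul, show φ leechU = leechU from mcl_U g,
    show φ leechV = leechV from mcl_V g] at h8
  have h9 : ∀ n ≤ 24, allN (fun c => decide ((2 * (r3.map fun b => dv (pc (look F b)) c).sum + 2 * uI c + vI c) % 3 = 0))
      n = true := fun n hn => by
    induction n with
    | zero => rfl
    | succ n ih =>
      have h10 := congrFun (congrArg Subtype.val h8) (pt n)
      simp only [AddSubgroup.coe_add, AddSubgroup.coe_zsmul, Pi.add_apply, Pi.smul_apply, smul_eq_mul, leechU, leechV,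
        h5, h6, (h4 r3 _ h3).2, vec, idx_pt hn] at h10
      show @Bool.rec (fun _ => Bool) false _ (decide _) = true
      rw [List.map_congr_left fun b hb => by rw [h1 b hb], ← h10, decide_eq_true (Int.mul_emod_right 3 _)]
      exact ih (by omega)
  exact h9 24 le_rfl

theorem range_eq : ρ.range = cl ms := (eq_of_le_of_card_ge (ms_le hρ) ((card_le_sym (τ := 1)
  ⟨fun _ => adj_rho hρ, fun g _ => by rw [mul_one, one_mul], fun _ hg _ => leaf3_rho hρ hg⟩ rfl up1).trans low_ms)).symm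

end

theorem mcl_equiv : Nonempty (cl ms ≃* McL) := by
  obtain ⟨ρ, h1, h2⟩ := exists_rho
  exact ⟨(MulEquiv.subgroupCongr (range_eq h2)).symm.trans (ρ.ofInjective h1).symm⟩

theorem adj_ms {x : CQ 275} (hx : x ∈ cl ms) : Adj x := by
  obtain ⟨ρ, -, h2⟩ := exists_rho
  exact adj_rho h2 (ms_le h2 hx)

theorem comm_of_mem {n : ℕ} [Fact (n ≤ 512)] {g τ : CQ n} (h : g ∈ centralizer {τ}) : g * τ = τ * g :=
  mem_centralizer_singleton_iff.mp h

theorem sr_cent {H : Subgroup (CQ 275)} (h : ∀ x ∈ H, Adj x) (τ : CQ 275) :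
    Sr (H ⊓ centralizer {τ}) τ fun _ => true where
  adj := fun g hg => h g (mem_inf.mp hg).1
  cm := fun _ hg => comm_of_mem (mem_inf.mp hg).2
  lf := fun _ _ _ _ => rfl

theorem cent_t : Nat.card ↥(cl ms ⊓ centralizer {ms.getD 0 1}) ≤ 80640 :=
  card_le_sym (sr_cent (fun _ => adj_ms) _) rfl up2

theorem cent_11 : ∃ s ∈ cl ms, s ^ 11 = 1 ∧ s ≠ 1 ∧ Nat.card ↥(cl ms ⊓ centralizer {s}) ≤ 22 := by
  have h1 := c11_eq
  have h2 := ev_mem_cl ms [7, 9, 13, 12]
  generalize ev ms [7, 9, 13, 12] = s at h1 h2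
  exact ⟨s, h2, h1.2.1, h1.2.2, card_le_sym (sr_cent (fun _ => adj_ms) _) h1.1 up3⟩

end Cfsg.Agent.McL
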