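import Cfsg.Agent.McL.PData

/-! Upper bounds for groups of automorphisms of the graph on 275 points. -/

set_option autoImplicit false

namespace Cfsg.Agent.McL

open Cfsg.Agent.Mat Subgroup MulAction

instance fact275 : Fact (275 ≤ 512) := ⟨by decide⟩

/-- Evaluation before use. -/
def frc {α : Type} (v : ℕ) (K : ℕ → α) : α := @Nat.rec (fun _ => α) (K 0) (fun n _ => K (Nat.succ n)) v

theorem frc_eq {α : Type} (v : ℕ) (K : ℕ → α) : frc v K = K v := by cases v <;> rfl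

/-- All points. -/
def full : ℕ := 0x7ffffffffffffffffffffffffffffffffffffffffffffffffffffffffffffffffffff

theorem full_bit {i : ℕ} (h : i < 275) : full.testBit i = true := by
  rw [show full = 2 ^ 275 - 1 by decide +kernel, Nat.testBit_two_pow_sub_one, decide_eq_true h]

/-- The points related to `x` as `b` is to `p`. -/
def rm (p b x : ℕ) : ℕ :=
  @Bool.rec (fun _ => ℕ) (@Bool.rec (fun _ => ℕ) (Nat.xor full (Nat.lor (ad x) (Nat.shiftLeft 1 x))) (ad x)
    ((ad p).testBit b)) (Nat.shiftLeft 1 x) (Nat.beq p b)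

/-- The candidates for the image of `b`. -/
def msk (F : List (ℕ × ℕ)) (b : ℕ) : ℕ :=
  @List.rec _ (fun _ => ℕ) full (fun p _ ih => Nat.land (rm p.1 b p.2) ih) F

/-- The map preserves the graph. -/
def Adj (g : CQ 275) : Prop := ∀ i < 275, ∀ j < 275, (ad (lq g.1 i)).testBit (lq g.1 j) = (ad i).testBit j

theorem lq_lt (g : CQ 275) {i : ℕ} (h : i < 275) : lq g.1 i < 275 := by
  rw [← CQ.smul_val g ⟨i, h⟩]
  exact Fin.is_lt _

theorem lq_inj (g : CQ 275) {i j : ℕ} (hi : i < 275) (hj : j < 275) (h : lq g.1 i = lq g.1 j) : i = j := by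
  rw [← CQ.smul_val g ⟨i, hi⟩, ← CQ.smul_val g ⟨j, hj⟩] at h
  exact congrArg Fin.val (MulAction.injective g (Fin.ext h))

theorem lq_mul (g h : CQ 275) {i : ℕ} (hi : i < 275) : lq (g * h).1 i = lq g.1 (lq h.1 i) := by
  rw [← CQ.smul_val (g * h) ⟨i, hi⟩, mul_smul, CQ.smul_val, CQ.smul_val]

theorem msk_bit {g : CQ 275} (hg : Adj g) {b : ℕ} (hb : b < 275) {F : List (ℕ × ℕ)}
    (hF : ∀ p ∈ F, p.1 < 275 ∧ lq g.1 p.1 = p.2) : (msk F b).testBit (lq g.1 b) = true := by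
  induction F with
  | nil => exact full_bit (lq_lt g hb)
  | cons p F ih =>
    show (rm p.1 b p.2 &&& msk F b).testBit _ = true
    rw [Nat.testBit_and, ih fun q hq => hF q (List.mem_cons_of_mem _ hq), Bool.and_true]
    obtain ⟨h1, h2⟩ := hF p List.mem_cons_self
    unfold rm
    cases h3 : Nat.beq p.1 b
    · have h4 := hg _ h1 _ hb
      rw [h2] at h4
      cases h5 : (ad p.1).testBit b <;> rw [h5] at h4
      · show (full ^^^ (ad p.2 ||| 1 <<< p.2)).testBit _ = true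
        rw [Nat.testBit_xor, Nat.testBit_or, h4, full_bit (lq_lt g hb), Nat.one_shiftLeft, Nat.testBit_two_pow,
          decide_eq_false fun e => Nat.ne_of_beq_eq_false h3 (lq_inj g h1 hb (h2.trans e))]
        rfl
      · exact h4
    · show (1 <<< p.2).testBit _ = true
      rw [Nat.one_shiftLeft, Nat.testBit_two_pow, ← h2, Nat.eq_of_beq_eq_true h3, decide_eq_true rfl]

/-- A candidate. -/
def cand (τ m b x : ℕ) : Bool :=
  m.testBit x && (((ad x).testBit (lq τ x) == (ad b).testBit (lq τ b)) && (Nat.beq x (lq τ x) == Nat.beq b (lq τ b)))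

theorem cand_of {g τ : CQ 275} (hg : Adj g) (hc : g * τ = τ * g) {b : ℕ} (hb : b < 275) {F : List (ℕ × ℕ)}
    (hF : ∀ p ∈ F, p.1 < 275 ∧ lq g.1 p.1 = p.2) : cand τ.1 (msk F b) b (lq g.1 b) = true := by
  have h1 : lq τ.1 (lq g.1 b) = lq g.1 (lq τ.1 b) := by rw [← lq_mul _ _ hb, ← hc, lq_mul _ _ hb]
  rw [cand, msk_bit hg hb hF, h1, hg _ hb _ (lq_lt τ hb)]
  simp only [Bool.true_and, BEq.rfl, beq_iff_eq]
  rw [Bool.eq_iff_iff, Nat.beq_eq, Nat.beq_eq]
  exact ⟨lq_inj g hb (lq_lt τ hb), fun e => by rw [← e]⟩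

/-- Sums. -/
def sumN (f : ℕ → ℕ) (n : ℕ) : ℕ := @Nat.rec (fun _ => ℕ) 0 (fun i acc => Nat.add (f i) acc) n

theorem sumN_eq (f : ℕ → ℕ) (n : ℕ) : sumN f n = ∑ i ∈ Finset.range n, f i := by
  induction n with
  | zero => rfl
  | succ n ih => rw [Finset.sum_range_succ, ← ih, add_comm (sumN f n)]; rfl

/-- Extension of an assignment. -/
def ext (τ b x : ℕ) (F : List (ℕ × ℕ)) : List (ℕ × ℕ) := (b, x) :: (lq τ b, lq τ x) :: F

/-- The number of leaves of the search tree. -/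
def cnt (τ : ℕ) (leaf : List (ℕ × ℕ) → Bool) (bs : List ℕ) : List (ℕ × ℕ) → ℕ :=
  @List.rec ℕ (fun _ => List (ℕ × ℕ) → ℕ) (fun F => @Bool.rec (fun _ => ℕ) 0 1 (leaf F))
    (fun b _ ih F => frc (msk F b) fun m => sumN (fun x => @Bool.rec (fun _ => ℕ) 0 (ih (ext τ b x F))
      (cand τ m b x)) 275) bs

theorem ext_of {g τ : CQ 275} (hc : g * τ = τ * g) {b : ℕ} (hb : b < 275) {F : List (ℕ × ℕ)}
    (hF : ∀ p ∈ F, p.1 < 275 ∧ lq g.1 p.1 = p.2) :
    ∀ p ∈ ext τ.1 b (lq g.1 b) F, p.1 < 275 ∧ lq g.1 p.1 = p.2 :=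
  List.forall_mem_cons.mpr ⟨⟨hb, rfl⟩, List.forall_mem_cons.mpr
    ⟨⟨lq_lt τ hb, by rw [← lq_mul _ _ hb, hc, lq_mul _ _ hb]⟩, hF⟩⟩

/-- The hypotheses of the search. -/
structure Sr (H : Subgroup (CQ 275)) (τ : CQ 275) (leaf : List (ℕ × ℕ) → Bool) : Prop where
  adj : ∀ g ∈ H, Adj g
  cm : ∀ g ∈ H, g * τ = τ * g
  lf : ∀ g ∈ H, ∀ F, (∀ p ∈ F, p.1 < 275 ∧ lq g.1 p.1 = p.2) → leaf F = true

theorem Sr.mono {H K : Subgroup (CQ 275)} {τ : CQ 275} {leaf : List (ℕ × ℕ) → Bool} (h : Sr H τ leaf) (e : K ≤ H) :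
    Sr K τ leaf := ⟨fun g hg => h.adj g (e hg), fun g hg => h.cm g (e hg), fun g hg => h.lf g (e hg)⟩

/-- The points of the final assignment. -/
def dom (τ : ℕ) (bs : List ℕ) : List ℕ := bs ++ bs.map (lq τ)

/-- The points are determined by their relations to the base. -/
def baseChk (B : List ℕ) : Bool :=
  allN (fun p => Nat.beq (msk (B.map fun b => (b, b)) p) (Nat.shiftLeft 1 p)) 275

theorem base_of {g : CQ 275} (hg : Adj g) {B : List ℕ} (h : baseChk B = true)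
    (hB : ∀ b ∈ B, b < 275 ∧ lq g.1 b = b) : g = 1 := by
  refine eq_of_smul_eq_smul (α := Fin 275) fun p => Fin.ext ?_
  have h1 := msk_bit hg p.2 (F := B.map fun b => (b, b)) (by simpa using hB)
  rw [Nat.eq_of_beq_eq_true (allN_spec h p p.2)] at h1
  have h2 : (1 <<< p.1).testBit (lq g.1 p) = true := h1
  rw [Nat.one_shiftLeft, Nat.testBit_two_pow, decide_eq_true_eq] at h2
  rw [CQ.smul_val, one_smul, ← h2]

theorem cnt_le {H : Subgroup (CQ 275)} {τ : CQ 275} {leaf : List (ℕ × ℕ) → Bool} (h : Sr H τ leaf) {B : List ℕ}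
    (hB : baseChk B = true) {bs : List ℕ} : ∀ {F : List (ℕ × ℕ)}, (∀ b ∈ bs, b < 275) →
      (∀ b ∈ B, b ∈ F.map Prod.fst ∨ b ∈ dom τ.1 bs) →
      {g | g ∈ H ∧ ∀ p ∈ F, p.1 < 275 ∧ lq g.1 p.1 = p.2}.ncard ≤ cnt τ.1 leaf bs F := by
  induction bs with
  | nil =>
    intro F _ h1
    show _ ≤ @Bool.rec (fun _ => ℕ) 0 1 (leaf F)
    cases e : leaf F
    · refine ((Set.ncard_eq_zero (Set.toFinite _)).mpr (Set.eq_empty_of_forall_notMem fun g hg => ?_)).le
      rw [h.lf g hg.1 F hg.2] at e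
      cases e
    · refine (Set.ncard_le_one (Set.toFinite _)).mpr fun g hg g' hg' => ?_
      refine (inv_mul_eq_one.mp (base_of (h.adj _ (mul_mem (inv_mem hg.1) hg'.1)) hB fun b hb => ?_))
      obtain ⟨p, hp, rfl⟩ := List.mem_map.mp ((h1 b hb).resolve_right (by simp [dom]))
      refine ⟨(hg.2 p hp).1, lq_inj g (lq_lt _ (hg.2 p hp).1) (hg.2 p hp).1 ?_⟩
      rw [← lq_mul _ _ (hg.2 p hp).1, mul_inv_cancel_left, (hg.2 p hp).2, (hg'.2 p hp).2]
  | cons b bs ih =>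
    intro F h1 h2
    have hb := h1 b List.mem_cons_self
    show _ ≤ frc (msk F b) fun m => sumN (fun x => @Bool.rec (fun _ => ℕ) 0 (cnt τ.1 leaf bs (ext τ.1 b x F))
      (cand τ.1 m b x)) 275
    rw [frc_eq, sumN_eq]
    refine le_trans (Set.ncard_le_ncard (t := ⋃ x ∈ Finset.range 275, {g | cand τ.1 (msk F b) b x = true ∧
      g ∈ H ∧ ∀ p ∈ ext τ.1 b x F, p.1 < 275 ∧ lq g.1 p.1 = p.2}) fun g hg => Set.mem_biUnion
        (Finset.mem_range.mpr (lq_lt g hb)) ⟨cand_of (h.adj g hg.1) (h.cm g hg.1) hb hg.2, hg.1,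
          ext_of (h.cm g hg.1) hb hg.2⟩) ((Finset.set_ncard_biUnion_le _ _).trans (Finset.sum_le_sum fun x _ => ?_))
    cases cand τ.1 (msk F b) b x
    · simp
    · simp only [true_and]
      refine ih (fun c hc => h1 c (List.mem_cons_of_mem _ hc)) fun c hc => ?_
      have := h2 c hc
      simp only [dom, ext, List.map_cons, List.mem_cons, List.mem_append] at this ⊢
      tauto

/-- Levels with a transitive action, then the search. -/
def sym (τ : ℕ) (leaf : List (ℕ × ℕ) → Bool) (bs r : List ℕ) : List (ℕ × ℕ) → ℕ :=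
  @List.rec ℕ (fun _ => List (ℕ × ℕ) → ℕ) (cnt τ leaf bs)
    (fun b _ ih F => Nat.mul (frc (msk F b) fun m => ((List.range 275).filter (cand τ m b)).length)
      (ih (ext τ b b F))) r

theorem sym_le {τ : CQ 275} {leaf : List (ℕ × ℕ) → Bool} {B : List ℕ} (hB : baseChk B = true) {bs r : List ℕ}
    (hbs : ∀ b ∈ bs, b < 275) : ∀ {H : Subgroup (CQ 275)} {F : List (ℕ × ℕ)}, Sr H τ leaf → (∀ b ∈ r, b < 275) →
      (∀ b ∈ B, b ∈ F.map Prod.fst ∨ b ∈ dom τ.1 r ∨ b ∈ dom τ.1 bs) →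
      (∀ g ∈ H, ∀ p ∈ F, p.1 < 275 ∧ lq g.1 p.1 = p.2) → Nat.card H ≤ sym τ.1 leaf bs r F := by
  induction r with
  | nil =>
    intro H F h _ h2 h3
    refine le_trans ?_ (cnt_le h hB hbs fun b hb => (h2 b hb).imp_right fun e => e.resolve_left (by simp [dom]))
    rw [show {g | g ∈ H ∧ ∀ p ∈ F, p.1 < 275 ∧ lq g.1 p.1 = p.2} = (H : Set (CQ 275)) from
      Set.ext fun g => ⟨And.left, fun hg => ⟨hg, h3 g hg⟩⟩]
    rfl
  | cons b r ih =>
    intro H F h h1 h2 h3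
    have hb := h1 b List.mem_cons_self
    show _ ≤ (frc (msk F b) fun m => ((List.range 275).filter (cand τ.1 m b)).length) *
      sym τ.1 leaf bs r (ext τ.1 b b F)
    rw [frc_eq]
    refine (card_le_step (b := (⟨b, hb⟩ : Fin 275)) (((List.range 275).filter (cand τ.1 (msk F b) b)).map
      (Fin.ofNat 275)) fun g hg => List.mem_map.mpr ⟨lq g.1 b, List.mem_filter.mpr ⟨List.mem_range.mpr (lq_lt g hb),
        cand_of (h.adj g hg) (h.cm g hg) hb (h3 g hg)⟩, Fin.ext ?_⟩).trans ?_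
    · rw [CQ.smul_val]
      exact Nat.mod_eq_of_lt (lq_lt g hb)
    rw [List.length_map]
    refine Nat.mul_le_mul_left _ (ih (h.mono inf_le_left) (fun c hc => h1 c (List.mem_cons_of_mem _ hc))
      (fun c hc => ?_) fun g hg => ?_)
    · have := h2 c hc
      simp only [dom, ext, List.map_cons, List.mem_cons, List.mem_append] at this ⊢
      tauto
    · have e : lq g.1 b = b := (CQ.smul_val g ⟨b, hb⟩).symm.trans (congrArg Fin.val (mem_inf.mp hg).2)
      have := ext_of (h.cm g (mem_inf.mp hg).1) hb (h3 g (mem_inf.mp hg).1)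
      rwa [e] at this

theorem card_le_sym {τ : CQ 275} {leaf : List (ℕ × ℕ) → Bool} {bs r : List ℕ} {H : Subgroup (CQ 275)}
    (h : Sr H τ leaf) {c N : ℕ} (hc : τ.1 = c) (e : (baseChk (dom c r ++ dom c bs) && allL (Nat.blt · 275) (r ++ bs) &&
      Nat.ble (sym c leaf bs r []) N) = true) : Nat.card H ≤ N := by
  subst hc
  simp only [Bool.and_eq_true, allL_iff, Nat.blt_eq, Nat.ble_eq, List.mem_append] at e
  exact (sym_le e.1.1 (fun b hb => e.1.2 b (Or.inr hb)) h (fun b hb => e.1.2 b (Or.inl hb))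
    (fun b hb => Or.inr (List.mem_append.mp hb)) (by simp)).trans e.2

end Cfsg.Agent.McL
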