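import Cfsg.Agent.McL.A8
import Cfsg.Agent.McL.QData

/-! Generators of the double cover and transfer of relations from the model. -/

set_option autoImplicit false
set_option maxRecDepth 100000
set_option linter.unusedSectionVars false

namespace Cfsg.Agent.McL

open Cfsg.Agent.Mat Subgroup

variable {X : Type*} [Group X] [Finite X]

/-- The list of generators. -/
def cL (q : X) (x : ℕ → X) : List X :=
  [q, x 0, (x 0)⁻¹, x 1, (x 1)⁻¹, x 2, (x 2)⁻¹, x 3, (x 3)⁻¹, x 4, (x 4)⁻¹, x 5, (x 5)⁻¹]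

theorem cL_rel {q : X} {x : ℕ → X} (h1 : q * q = 1) (h2 : ∀ g, g * q = q * g) (h3 : ∀ i < 6, x i * x i * x i = 1)
    (h4 : ∀ j < 6, ∀ i < j, x i * x j * (x i * x j) = q) : ∀ r ∈ relsC, ev (cL q x) r = 1 := by
  have a1 : ∀ i, q * (x i * (q * (x i)⁻¹)) = 1 := fun i => by
    rw [← mul_assoc (x i), h2, mul_assoc, mul_inv_cancel, mul_one, h1]
  have a2 : ∀ i < 6, x i * (x i * x i) = 1 := fun i hi => by rw [← mul_assoc, h3 i hi]
  have a3 : ∀ j < 6, ∀ i < j, x i * (x j * (x i * (x j * q))) = 1 := fun j hj i hi => by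
    rw [← h1]
    nth_rw 2 [← h4 j hj i hi]
    simp only [mul_assoc]
  simp only [relsC, cL, List.forall_mem_cons, ev, List.getD_cons_succ, List.getD_cons_zero, mul_one, h1, a1,
    mul_inv_cancel, inv_mul_cancel, true_and]
  refine ⟨?_, ?_, ?_, ?_, ?_, ?_, ?_, ?_, ?_, ?_, ?_, ?_, ?_, ?_, ?_, ?_, ?_, ?_, ?_, ?_, ?_, by simp⟩
  all_goals first | exact a2 _ (by decide) | exact a3 _ (by decide) _ (by decide)

theorem map_cl {A B : Type*} [Group A] [Group B] (f : A →* B) (l : List A) : (cl l).map f = cl (l.map f) := by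
  rw [cl, cl, MonoidHom.map_closure]
  congr 1
  ext x
  simp

namespace Cov

variable {z : X} {π : X →* CP 8} (h : Cov z π)
include h

theorem exists_gens : ∃ x : ℕ → X, (cL z x).map π = ms8 ∧ ∀ r ∈ relsC, ev (cL z x) r = 1 := by
  have f1 : ∀ i < 6, ms8.getD (2 * i + 1) 1 * ms8.getD (2 * i + 1) 1 * ms8.getD (2 * i + 1) 1 = 1 := by decide +kernel
  have f2 : ∀ j < 6, ∀ i < j, ms8.getD (2 * i + 1) 1 * ms8.getD (2 * j + 1) 1 *
      (ms8.getD (2 * i + 1) 1 * ms8.getD (2 * j + 1) 1) = 1 ∧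
      sp (ms8.getD 1 1 * ms8.getD 3 1) = sp (ms8.getD (2 * i + 1) 1 * ms8.getD (2 * j + 1) 1) := by decide +kernel
  have f3 : tr45 * (ms8.getD 1 1 * ms8.getD 3 1) = ms8.getD 1 1 * ms8.getD 3 1 * tr45 := by decide +kernel
  have f4 : cL 1 (fun i => ms8.getD (2 * i + 1) 1) = ms8 := by decide +kernel
  choose! x h1 h2 using fun i (hi : i < 6) => h.lift3 (cl_ms8 ▸ getD_mem (fun _ => mem_cl) _) (f1 i hi)
  have h3 : ∀ q, π q = 1 → (cL q x).map π = ms8 := fun q hq => by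
    rw [← f4]
    simp only [cL, List.map_cons, List.map_nil, map_inv, hq, h1 0 (by decide), h1 1 (by decide), h1 2 (by decide),
      h1 3 (by decide), h1 4 (by decide), h1 5 (by decide)]
  have h4 : π (x 0 * x 1) = ms8.getD 1 1 * ms8.getD 3 1 := by rw [map_mul, h1 0 (by decide), h1 1 (by decide)]
  have h5 : π (x 0 * x 1) * π (x 0 * x 1) = 1 := by rw [h4]; exact (f2 1 (by decide) 0 (by decide)).1
  have h6 : ∀ j < 6, ∀ i < j, x i * x j * (x i * x j) = x 0 * x 1 * (x 0 * x 1) := fun j hj i hi => by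
    have e : π (x i * x j) = ms8.getD (2 * i + 1) 1 * ms8.getD (2 * j + 1) 1 := by
      rw [map_mul, h1 i (by omega), h1 j hj]
    exact h.sq_eq h5 (by rw [e]; exact (f2 j hj i hi).1) (by rw [e, h4]; exact (f2 j hj i hi).2) (by rw [h4, f3])
  rcases (h.ker (x 0 * x 1 * (x 0 * x 1))).mp (by rw [map_mul, h5]) with e | e <;> rw [e] at h6
  · have h7 := presC _ rfl (cL_rel (mul_one 1) (by simp) h2 h6)
    rw [show cl ((cL 1 x).take 1) = ⊥ from eq_bot_iff.mpr (cl_le (by simp [cL])), card_bot] at h7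
    exact absurd (by rw [map_cl, h3 1 (map_one π), cl_ms8]) (h.ns _ h7)
  · exact ⟨x, h3 z ((h.ker z).mpr (Or.inr rfl)), cL_rel h.zz h.cz h2 h6⟩

end Cov

/-- The data found in the double cover. -/
structure Dc (z : X) (xs : List X) : Prop where
  len : xs.length = 13
  z0 : ev xs [0] = z
  top : cl xs = ⊤
  card : Nat.card X = 40320
  rel : ∀ v w, ev xsM v = ev xsM w → ev xs v = ev xs w
  cls : ∀ v, v * v = 1 → v ≠ 1 → v ≠ z → ∃ g, g * ev xs (defs.getD 1 []) * g⁻¹ = v ∨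
    g * ev xs (defs.getD 1 []) * g⁻¹ = z * v
  cen : ∀ g, g * ev xs (defs.getD 1 []) = ev xs (defs.getD 1 []) * g → g ∈ cl (defsQ.map (ev xs))
  low : 384 ≤ Nat.card (cl (defsQ.map (ev xs)))

theorem Cov.exists_dc {z : X} {π : X →* CP 8} (h : Cov z π) : ∃ xs, Dc z xs := by
  obtain ⟨x, h1, h2⟩ := h.exists_gens
  have h0 : ev (cL z x) [0] = z := mul_one z
  have h3 : (cL z x).length = 13 := rfl
  generalize cL z x = xs at h0 h1 h2 h3
  have h4 : ∀ w, π (ev xs w) = ev ms8 w := fun w => by rw [map_ev, h1]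
  have h5 : z ∈ cl xs := h0 ▸ ev_mem_cl _ _
  obtain ⟨f, hf⟩ := exists_hom_words (ms := xsM) (gs := xs) (N := 40320) (by rw [h3]; decide +kernel)
    (fun l hl hr => by
      have e1 := presC l (hl.trans h3) hr
      have e2 := card_take_le hr (rels' := [[0, 0]]) (subs := []) (k := 1) (k' := 0) (n := 2) (J := [0]) (T := [1, 257])
        (iv := 2 ^ 2048 - 256) (P := 2 ^ 56) (E := 2 ^ 16) (by decide +kernel) (by omega)
      rw [card_take_zero] at e2
      omega) low_xsM (by simpa only [allL_iff, decide_eq_true_eq] using xsM_rel) h2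
  have h6 : ∀ v w, ev xsM v = ev xsM w → ev xs v = ev xs w := fun v w e => by
    rw [← hf, ← hf]
    exact congrArg f (Subtype.ext e)
  have f1 : ev ms8 (defs.getD 1 []) * ev ms8 (defs.getD 1 []) = 1 ∧ sp (ev ms8 (defs.getD 1 [])) = 8 ∧
      tr45 * ev ms8 (defs.getD 1 []) = ev ms8 (defs.getD 1 []) * tr45 ∧ ev ms8 [1, 3] * ev ms8 [1, 3] = 1 ∧
      sp (ev ms8 [1, 3]) = 4 ∧ tr45 * ev ms8 [1, 3] = ev ms8 [1, 3] * tr45 ∧ ev xsM [1, 3, 1, 3] = ev xsM [0] ∧
      ∀ g ∈ defsQ.map (ev ms8), g * ev ms8 (defs.getD 1 []) = ev ms8 (defs.getD 1 []) * g := by decide +kernel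
  obtain ⟨f1, f2, f3, f4, f5, f6, f7, f8⟩ := f1
  have h7 : (cl (defsQ.map (ev xs))).map π = cl (defsQ.map (ev ms8)) := by
    rw [map_cl, List.map_map]
    exact congrArg cl (List.map_congr_left fun w _ => h4 w)
  have h8 : z ∈ cl (defsQ.map (ev xs)) := mem_cl (List.mem_map.mpr ⟨[0], by decide, h0⟩)
  have h9 : cl (defsQ.map (ev ms8)) = A8 ⊓ centralizer {ev ms8 (defs.getD 1 [])} :=
    eq_of_le_of_card_ge (cl_le fun g hg => mem_inf.mpr ⟨by
      obtain ⟨w, -, rfl⟩ := List.mem_map.mp hg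
      exact cl_ms8 ▸ ev_mem_cl _ _, mem_centralizer_singleton_iff.mpr (f8 g hg)⟩) ((card_cent f1 f2 f3).trans low_Q8)
  refine ⟨xs, h3, h0, eq_top_iff.mpr fun g _ => h.top_of h5 (by rw [map_cl, h1, cl_ms8]) (h.mem g), h.card, h6,
    fun v v1 v2 v3 => ?_, fun g hg => h.top_of h8 h7.ge (h9.ge (mem_inf.mpr ⟨h.mem g,
      mem_centralizer_singleton_iff.mpr (by rw [← h4, ← map_mul, hg, map_mul])⟩)), ?_⟩
  · have e1 : π v * π v = 1 := by rw [← map_mul, v1, map_one]
    rcases sp_cases e1 (fun e => ((h.ker v).mp e).elim v2 v3) (h.mem v) with e | e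
    · have e2 := h.sq_eq (x := ev xs [1, 3]) (by rw [h4, f4]) e1 (by rw [h4, f5, e]) (by rw [h4, f6])
      rw [v1, ← ev_append, show [1, 3] ++ [1, 3] = [1, 3, 1, 3] from rfl, h6 _ _ f7, h0] at e2
      exact absurd e2.symm h.z1
    · exact h.conj (by rw [h4, f1]) e1 (by rw [h4, f2, e]) (by rw [h4, f3])
  · generalize cl (defsQ.map (ev xs)) = L at h7 h8
    have k4 := card_eq_card_quotient_mul_card_subgroup (π.comp L.subtype).ker
    rw [Nat.card_congr (QuotientGroup.quotientKerEquivRange _).toEquiv, MonoidHom.range_comp, range_subtype, h7] at k4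
    have k5 : Nat.card (π.comp L.subtype).ker ≠ 1 := fun e => h.z1 (congrArg Subtype.val (mem_bot.mp
      ((card_eq_one.mp e).le (show (⟨z, h8⟩ : L) ∈ _ from (h.ker z).mpr (Or.inr rfl)))))
    have k6 : 0 < Nat.card (π.comp L.subtype).ker := Nat.card_pos
    have k7 := Nat.mul_le_mul low_Q8 (show 2 ≤ Nat.card (π.comp L.subtype).ker by omega)
    omega

end Cfsg.Agent.McL
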